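import Cfsg.Agent.TwistedLie.InvF4.Reduce
import Cfsg.Agent.TitsInvolutions.Main

/-!
The two classes of involutions of `²F₄(q)` and of the Tits group.
-/

set_option autoImplicit false

namespace CfsgLib.TwistedLie.F4Inv

open Cfsg.Lie CfsgLib.Chevalley CfsgLib.TwistedLie.F4

local notation "S" => sysF4

theorem rank_conjg {F : Type*} [Field F] (g h : GL chevF4.Idx F) :
    (((h * g * h⁻¹ : GL chevF4.Idx F) : Matrix chevF4.Idx chevF4.Idx F) - 1).rank =
      ((g : Matrix chevF4.Idx chevF4.Idx F) - 1).rank := by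
  have e : ((h * g * h⁻¹ : GL chevF4.Idx F) : Matrix chevF4.Idx chevF4.Idx F) - 1 =
      (h : Matrix chevF4.Idx chevF4.Idx F) * ((g : Matrix chevF4.Idx chevF4.Idx F) - 1) *
        ((h⁻¹ : GL chevF4.Idx F) : Matrix chevF4.Idx chevF4.Idx F) := by
    rw [mul_sub, sub_mul, mul_one, Units.val_mul, Units.val_mul, Units.mul_inv]
  rw [e, Matrix.rank_mul_eq_left_of_isUnit_det _ _
      ((Matrix.isUnit_iff_isUnit_det _).mp (h⁻¹ : GL chevF4.Idx F).isUnit),
    Matrix.rank_mul_eq_right_of_isUnit_det _ _ ((Matrix.isUnit_iff_isUnit_det _).mp h.isUnit)]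

theorem isConj_coe {H : Type*} [Group H] {N : Subgroup H} {a b : ↥N} (h : IsConj a b) :
    IsConj (a : H) (b : H) := by
  obtain ⟨c, hc⟩ := isConj_iff.mp h
  exact isConj_iff.mpr ⟨(c : H), by rw [← hc]; rfl⟩

theorem mul_self_of_orderOf {H : Type*} [Group H] {g : H} (h : orderOf g = 2) : g * g = 1 := by
  rw [← sq, ← h, pow_orderOf_eq_one]

variable {K : Type*} [Field K] [Fintype K] {m : ℕ} (hK : Fintype.card K = 2 ^ (2 * m + 1))
include hK

local notation "G1" => chevF4.genSubgroup K (f4Words K (2 ^ m))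

theorem ranks :
    ((xw K [33, 24] : Matrix chevF4.Idx chevF4.Idx K) - 1).rank = 24 ∧
      ((xw K [28, 30] : Matrix chevF4.Idx chevF4.Idx K) - 1).rank = 21 := by
  haveI := charTwo hK
  exact ⟨(sysF4.rank_sub_one K rankP).trans rfl, (sysF4.rank_sub_one K rankQ).trans rfl⟩

theorem xw_ne_one : xw K [33, 24] ≠ 1 ∧ xw K [28, 30] ≠ 1 := by
  obtain ⟨h1, h2⟩ := ranks hK
  constructor <;> intro e
  · rw [e, Units.val_one, sub_self, Matrix.rank_zero] at h1
    omega
  · rw [e, Units.val_one, sub_self, Matrix.rank_zero] at h2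
    omega

theorem not_cj : ¬Cj hK (xw K [33, 24]) (xw K [28, 30]) := by
  rintro ⟨k, -, e⟩
  obtain ⟨h1, h2⟩ := ranks hK
  have := rank_conjg (xw K [33, 24]) k
  rw [e] at this
  omega

/-- The two standard involutions. -/
noncomputable def inv2 (b : Bool) : ↥G1 :=
  if b then ⟨xw K [33, 24], (xw_P hK).2.2⟩ else ⟨xw K [28, 30], (xw_Q hK).2.2⟩

theorem inv2_order (b : Bool) : orderOf (inv2 hK b) = 2 := by
  haveI : Fact (Nat.Prime 2) := ⟨Nat.prime_two⟩
  refine orderOf_eq_prime ?_ ?_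
  · rw [sq]
    refine Subtype.ext ?_
    cases b
    · exact (xw_Q hK).2.1
    · exact (xw_P hK).2.1
  · intro e
    have := congrArg Subtype.val e
    cases b
    · exact (xw_ne_one hK).2 this
    · exact (xw_ne_one hK).1 this

/-- Every involution is conjugate to a standard one. -/
theorem exists_inv2 (g : ↥G1) (hg : orderOf g = 2) : ∃ b, IsConj g (inv2 hK b) := by
  haveI : Fact (Nat.Prime 2) := ⟨Nat.prime_two⟩
  have hG : (tw hK).G = G1 := rfl
  set q := 2 ^ (2 * m + 1) with hq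
  set U := (chevF4.posUnipotent K ⊓ G1).subgroupOf G1 with hU
  have hcU : Nat.card ↥U = 2 ^ ((2 * m + 1) * 12) := by
    rw [hU, Nat.card_congr (Subgroup.subgroupOfEquivOfLe inf_le_right).toEquiv, pow_mul]
    exact card_U hK
  have hidx : ¬2 ∣ U.index := by
    have h := U.card_mul_index
    rw [hcU, show Nat.card ↥G1 = Nat.card ↥(tw hK).G from rfl, card_group hK, pow_mul, ← hq,
      mul_assoc (q ^ 12), mul_assoc (q ^ 12), mul_assoc (q ^ 12)] at h
    rw [Nat.eq_of_mul_eq_mul_left (pow_pos (Nat.two_pow_pos _) _) h]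
    have he : Even q := by rw [hq]; exact Nat.even_pow.mpr ⟨even_two, by omega⟩
    have h1 : 1 ≤ q := Nat.one_le_two_pow
    have h4 : 1 ≤ q ^ 4 := Nat.one_le_pow _ _ h1
    rw [← even_iff_two_dvd]
    simp [Nat.even_mul, Nat.even_sub h1, Nat.even_sub h4, Nat.even_add, Nat.even_pow, he]
  have hUp : IsPGroup 2 ↥U := IsPGroup.of_card hcU
  set P := hUp.toSylow hidx with hP
  have hgp : IsPGroup 2 ↥(Subgroup.zpowers g) :=
    IsPGroup.of_card (n := 1) (by rw [Nat.card_zpowers, hg, pow_one])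
  obtain ⟨Q, hQ⟩ := hgp.exists_le_sylow
  obtain ⟨k, hk⟩ := MulAction.exists_smul_eq ↥G1 Q P
  set u := k * g * k⁻¹ with hu
  have hmem : u ∈ U := by
    have : k * g * k⁻¹ ∈ ((k • Q : Sylow 2 ↥G1) : Subgroup ↥G1) := by
      rw [Sylow.coe_subgroup_smul]
      exact Subgroup.smul_mem_pointwise_smul g (MulAut.conj k) _ (hQ (Subgroup.mem_zpowers g))
    rwa [hk, hP, IsPGroup.toSylow_coe] at this
  have hgu : IsConj g u := isConj_iff.mpr ⟨k, rfl⟩
  have huo : u * u = 1 := by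
    rw [hu]
    calc _ = k * (g * g) * k⁻¹ := by group
      _ = 1 := by rw [mul_self_of_orderOf hg]; group
  have hu1 : (u : GL chevF4.Idx K) ≠ 1 := by
    intro e
    have : g = 1 := isConj_one_left.mp ((Subtype.ext e : u = 1) ▸ hgu)
    rw [this, orderOf_one] at hg
    omega
  have h2' := congrArg Subtype.val huo
  rw [Subgroup.coe_mul, Subgroup.coe_one] at h2'
  rcases two_classes hK (Subgroup.mem_subgroupOf.mp hmem).1 u.2 h2' hu1 with ⟨c, hc, e⟩ | ⟨c, hc, e⟩
  · exact ⟨true, hgu.trans (isConj_iff.mpr ⟨⟨c, hc⟩, Subtype.ext e⟩)⟩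
  · exact ⟨false, hgu.trans (isConj_iff.mpr ⟨⟨c, hc⟩, Subtype.ext e⟩)⟩

theorem inv2_not_conj : ¬IsConj (inv2 hK true) (inv2 hK false) := by
  intro h
  obtain ⟨c, e⟩ := isConj_iff.mp h
  exact not_cj hK ⟨c, c.2, congrArg Subtype.val e⟩

/-- `²F₄(q)` has two classes of involutions. -/
theorem ncard_inv : (ConjClasses.mk '' {g : ↥(twistedF4 K (2 ^ m)) | orderOf g = 2}).ncard = 2 := by
  show (ConjClasses.mk '' {g : ↥G1 | orderOf g = 2}).ncard = 2
  have e : ConjClasses.mk '' {g : ↥G1 | orderOf g = 2} =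
      {ConjClasses.mk (inv2 hK true), ConjClasses.mk (inv2 hK false)} := by
    ext c
    constructor
    · rintro ⟨g, hg, rfl⟩
      obtain ⟨b, hb⟩ := exists_inv2 hK g hg
      cases b
      · exact Or.inr (ConjClasses.mk_eq_mk_iff_isConj.mpr hb)
      · exact Or.inl (ConjClasses.mk_eq_mk_iff_isConj.mpr hb)
    · rintro (rfl | rfl) <;> exact ⟨_, inv2_order hK _, rfl⟩
  rw [e, Set.ncard_pair]
  exact fun h => inv2_not_conj hK (ConjClasses.mk_eq_mk_iff_isConj.mp h)

omit hK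

section Tits

set_option maxRecDepth 4000

open CfsgLib.TitsInvolutions

local notation "K₂" => ZMod 2
local notation "hK₂" => TitsInvolutions.card_field
local notation "G" => TitsInvolutions.G

theorem comm_P : el K₂ [34, 26, 36, 33, 24] = el K₂ [33, 24, 34, 26, 36] :=
  el_eq_of_sameB K₂ (by simp [Good]) (by simp [Good]) (by decide +kernel)

theorem comm_Q : el K₂ [27, 25, 28, 28, 30] = el K₂ [28, 30, 27, 25, 28] :=
  el_eq_of_sameB K₂ (by simp [Good]) (by simp [Good]) (by decide +kernel)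

theorem el_xw (a b : ℕ) : el K₂ [a, b] = xw K₂ [a, b] := by
  simp [el_cons, el_nil, xw, Sys.xProd_cons, Sys.xProd_nil]

/-- The abelianisation takes two values. -/
theorem ab_val {h : GL chevF4.Idx K₂} (hh : h ∈ G) :
    TitsInvolutions.ab h = 1 ∨ TitsInvolutions.ab h = aa := by
  let M : Subgroup (GL chevF4.Idx K₂) :=
    { carrier := {h | h ∈ G ∧ (TitsInvolutions.ab h = 1 ∨ TitsInvolutions.ab h = aa)}
      one_mem' := ⟨one_mem _, Or.inl TitsInvolutions.ab_one⟩
      mul_mem' := fun {a b} ha hb => by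
        refine ⟨mul_mem ha.1 hb.1, ?_⟩
        rw [ab_mul ha.1 hb.1]
        rcases ha.2 with e | e <;> rcases hb.2 with e' | e' <;> simp [e, e', aa_sq]
      inv_mem' := fun {a} ha => by
        refine ⟨inv_mem ha.1, ?_⟩
        rw [ab_inv ha.1]
        rcases ha.2 with e | e <;> simp [e, inv_eq_of_mul_eq_one_right aa_sq] }
  have hX : ∀ i x, x ∈ (tw hK₂).X i → x ∈ M := by
    intro i x hx
    obtain ⟨w, hw, rfl⟩ := mem_W hx
    refine ⟨W_mem_G i w hw, ?_⟩
    rw [ab_W i w hw]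
    cases w.2 <;> simp [pw]
  have hN : ∀ i x, x ∈ M → nL S K₂ (blkN i) * x * (nL S K₂ (blkN i))⁻¹ ∈ M := by
    intro i x hx
    have hn : nn i ∈ G := nn_mem i
    refine ⟨mul_mem (mul_mem hn hx.1) (inv_mem hn), ?_⟩
    have := ab_conj hx.1 (inv_mem hn)
    rw [inv_inv] at this
    show TitsInvolutions.ab (nn i * x * (nn i)⁻¹) = 1 ∨ TitsInvolutions.ab (nn i * x * (nn i)⁻¹) = aa
    rw [this]
    exact hx.2
  haveI := charTwo hK₂
  have hle : G ≤ M := by
    refine gen_le S K₂ ?_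
    rintro w (⟨t, rfl | rfl⟩ | ⟨t, u, rfl | rfl⟩)
    · have := hX 1 _ ((mem_XX1 hK₂).mpr ⟨t, rfl⟩)
      simpa [pairEl, f4PairWord, Sys.wG, f4p1, f4p4] using this
    · have := hN 1 _ (hX 1 _ ((mem_XX1 hK₂).mpr ⟨t, rfl⟩))
      rw [pair_conj hK₂] at this
      simpa [f4PairWord, Sys.wG, f4m1, f4m4] using this
    · have := hX 0 _ ((mem_XX0 hK₂).mpr ⟨t, u, rfl⟩)
      simpa [quadEl, b2ClassWord, f4a, f4b, f4ab, f4aab, Sys.wG, mul_assoc] using this
    · have := hN 0 _ (hX 0 _ ((mem_XX0 hK₂).mpr ⟨t, u, rfl⟩))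
      rw [quad_conj hK₂] at this
      simpa [quadEl, b2ClassWord, f4ma, f4mb, f4mab, f4maab, Sys.wG, mul_assoc] using this
  exact (hle hh).2

/-- The standard involutions in `²F₄(2)`. -/
noncomputable def iv (b : Bool) : ↥G := ⟨(inv2 hK₂ b : GL chevF4.Idx K₂), (inv2 hK₂ b).2⟩

theorem iv_order (b : Bool) : orderOf (iv b) = 2 := inv2_order hK₂ b

theorem exists_iv (g : ↥G) (hg : orderOf g = 2) : ∃ b, IsConj g (iv b) := exists_inv2 hK₂ g hg

theorem iv_not_conj : ¬IsConj (iv true) (iv false) := inv2_not_conj hK₂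

/-- A centralising element of the nontrivial class. -/
theorem exists_cent (b : Bool) : ∃ c : ↥G, TitsInvolutions.ab (c : GL chevF4.Idx K₂) = aa ∧
    c * iv b * c⁻¹ = iv b := by
  have ha := W_mem_G 0 ([27, 25, 28], true) (by simp [W])
  cases b
  · refine ⟨⟨_, ha⟩, rfl, ?_⟩
    rw [mul_inv_eq_iff_eq_mul]
    refine Subtype.ext ?_
    show el K₂ [27, 25, 28] * xw K₂ [28, 30] = xw K₂ [28, 30] * el K₂ [27, 25, 28]
    rw [← el_xw, ← el_append, ← el_append]
    exact comm_Q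
  · have hm := el_mem_map (i := 1) (show Good [27, 25, 28] by simp [Good]) ha
    have hab := ab_map (i := 1) (show Good [27, 25, 28] by simp [Good]) ha
    rw [show [27, 25, 28].map (fmap 1) = [34, 26, 36] by decide +kernel] at hm hab
    refine ⟨⟨_, hm⟩, hab, ?_⟩
    rw [mul_inv_eq_iff_eq_mul]
    refine Subtype.ext ?_
    show el K₂ [34, 26, 36] * xw K₂ [33, 24] = xw K₂ [33, 24] * el K₂ [34, 26, 36]
    rw [← el_xw, ← el_append, ← el_append]
    exact comm_P

theorem mem_comm {x : ↥G} (hx : TitsInvolutions.ab (x : GL chevF4.Idx K₂) = 1) :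
    x ∈ commutator ↥G := by
  rw [← Abelianization.ker_of, MonoidHom.mem_ker]
  have e : TitsInvolutions.ab (x : GL chevF4.Idx K₂) = Abelianization.of x := by
    rw [TitsInvolutions.ab, dif_pos x.2]
  rw [← e, hx]

theorem exists_conj_comm (g : ↥G) (hg : orderOf g = 2) :
    ∃ b, ∃ k ∈ commutator ↥G, k * g * k⁻¹ = iv b := by
  obtain ⟨b, hb⟩ := exists_iv g hg
  obtain ⟨k, hk⟩ := isConj_iff.mp hb
  refine ⟨b, ?_⟩
  rcases ab_val k.2 with e | e
  · exact ⟨k, mem_comm e, hk⟩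
  · obtain ⟨c, hc1, hc2⟩ := exists_cent b
    have e1 : TitsInvolutions.ab ((c * k : ↥G) : GL chevF4.Idx K₂) = 1 := by
      rw [Subgroup.coe_mul, ab_mul c.2 k.2, hc1, e, aa_sq]
    refine ⟨c * k, mem_comm e1, ?_⟩
    calc _ = c * (k * g * k⁻¹) * c⁻¹ := by group
      _ = _ := by rw [hk, hc2]

theorem ncard_commutator :
    (ConjClasses.mk '' {g : ↥(commutator ↥G) | orderOf g = 2}).ncard = 2 := by
  have hc : ∀ b, iv b ∈ commutator ↥G := fun b =>
    TitsInvolutions.mem_commutator_of_orderOf (iv b) (iv_order b)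
  let z : Bool → ↥(commutator ↥G) := fun b => ⟨iv b, hc b⟩
  have hz : ∀ b, orderOf (z b) = 2 := fun b => by
    rw [← Subgroup.orderOf_coe]
    exact iv_order b
  have e : ConjClasses.mk '' {g : ↥(commutator ↥G) | orderOf g = 2} =
      {ConjClasses.mk (z true), ConjClasses.mk (z false)} := by
    ext c
    constructor
    · rintro ⟨g, hg, rfl⟩
      have hg' : orderOf (g : ↥G) = 2 := by rw [Subgroup.orderOf_coe]; exact hg
      obtain ⟨b, k, hk, hb⟩ := exists_conj_comm g hg'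
      have h : IsConj g (z b) := isConj_iff.mpr ⟨⟨k, hk⟩, Subtype.ext hb⟩
      cases b
      · exact Or.inr (ConjClasses.mk_eq_mk_iff_isConj.mpr h)
      · exact Or.inl (ConjClasses.mk_eq_mk_iff_isConj.mpr h)
    · rintro (rfl | rfl) <;> exact ⟨_, hz _, rfl⟩
  rw [e, Set.ncard_pair]
  intro h
  exact iv_not_conj (isConj_coe (N := commutator ↥G) (a := z true) (b := z false)
    (ConjClasses.mk_eq_mk_iff_isConj.mp h))

/-- The Tits group has two classes of involutions. -/
theorem ncard_tits : (ConjClasses.mk '' {g : Cfsg.Lie.TitsGroup | orderOf g = 2}).ncard = 2 :=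
  ncard_commutator

end Tits

end CfsgLib.TwistedLie.F4Inv
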