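import Cfsg.Agent.TwistedLie.InvF4.Lists

/-!
An involution with nonzero coordinate on the pair is conjugate to the element of the pair.
-/

set_option autoImplicit false

namespace CfsgLib.TwistedLie.F4Inv

open Cfsg.Lie CfsgLib.Chevalley CfsgLib.TwistedLie.F4
open Mod2 (ew ew_append ew_cons ew_nil eq2B eq2_sound)

local notation "S" => sysF4

variable {K : Type*} [Field K] [Fintype K] {m : ℕ} (hK : Fintype.card K = 2 ^ (2 * m + 1))
include hK

local notation "G1" => chevF4.genSubgroup K (f4Words K (2 ^ m))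
local notation "θ" => 2 ^ m

variable {v r : GL chevF4.Idx K}

theorem one_step1 (h : St hK [33, 24] P1 v r) : ∃ r', St hK [33, 24] P2 v r' := by
  haveI := charTwo hK
  obtain ⟨-, hx, hxG⟩ := xw_P hK
  have hP : ∀ r ∈ P1, chevF4.nroots / 2 ≤ r ∧ r < chevF4.nroots :=
    (co_of_chk (show chkCo P1 27 = true by decide +kernel)).all
  have hl : chkLin tblP P1 34 [27] = true := by decide +kernel
  have hl' : chkLin tblP P1 26 [25] = true := by decide +kernel
  set s := co P1 34 r ^ (2 * θ) with hs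
  set q := quadEl m 27 25 28 30 s (0 : K) with hq
  have hmem : ∀ r ∈ [27, 25, 28, 30], r ∈ P1 := by decide +kernel
  have hqP : q ∈ UP K P1 := quad_mem_UP hK hP hmem s 0
  have h1 := h.step hK tblP_ok hx hl hxG hqP (q8_mem hK s 0)
  have c34 : co P1 34 (next [33, 24] q r) = 0 := by
    refine co_next_eq hK h tblP_ok hx hl hqP rfl ?_
    simp [hq, co_quad hK (co_of_chk (show chkCo P1 27 = true by decide +kernel)) hmem, hs,
      two_theta hK]
  have c26 := co_sigma0 hK (show chkSig P1 34 = true by decide +kernel) h1.mem h1.memG c34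
  rw [rr_pairs.2.2.1] at c26
  have c27 := h1.kernel1 hK tblP_ok hx hl
  have c25 := h1.kernel1 hK tblP_ok hx hl'
  refine ⟨_, h1.shrink hK (L := [34, 26, 27, 25]) (by decide +kernel) (by decide +kernel) ?_
    (by decide +kernel)⟩
  simp [c34, c26, c27, c25]

theorem one_step2 (h : St hK [33, 24] P2 v r) : ∃ r', St hK [33, 24] P3 v r' := by
  haveI := charTwo hK
  obtain ⟨-, hx, hxG⟩ := xw_P hK
  have H28 : Co P2 28 := co_of_chk (by decide +kernel)
  have H29 : Co P2 29 := co_of_chk (by decide +kernel)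
  have H35 : Co P2 35 := co_of_chk (by decide +kernel)
  have l35 : chkLin tblP P2 35 [28] = true := by decide +kernel
  have l31 : chkLin tblP P2 31 [30] = true := by decide +kernel
  have l36 : chkLin tblP P2 36 [28, 29, 35] = true := by decide +kernel
  set u := co P2 35 r with hu
  set q := quadEl m 27 25 28 30 (0 : K) u with hq
  have hqP : q ∈ UP K P2 :=
    quad_zero_mem hK H28.all (by decide +kernel) (by decide +kernel) u
  have h1 := h.step hK tblP_ok hx l35 hxG hqP (q8_mem hK 0 u)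
  set r1 := next [33, 24] q r with hr1
  have c35 : co P2 35 r1 = 0 := by
    refine co_next_eq hK h tblP_ok hx l35 hqP rfl ?_
    simp [hq, co_quad_zero hK H28 (show 28 ∈ P2 by decide +kernel) (show 30 ∈ P2 by decide +kernel),
      hu]
  set s := co P2 36 r1 ^ (2 * θ) with hs
  set q' := quadEl m 35 31 40 46 s (0 : K) with hq'
  have hmem : ∀ r ∈ [35, 31, 40, 46], r ∈ P2 := by decide +kernel
  have hqP' : q' ∈ UP K P2 := quad_mem_UP hK H28.all hmem s 0
  have h2 := h1.step hK tblP_ok hx l36 hxG hqP' (q6_mem hK s 0)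
  have c36 : co P2 36 (next [33, 24] q' r1) = 0 := by
    refine co_next_eq hK h1 tblP_ok hx l36 hqP' rfl ?_
    simp [hq', co_quad hK H28 hmem, co_quad hK H29 hmem, co_quad hK H35 hmem, hs, two_theta hK]
  have c35' : co P2 35 (next [33, 24] q' r1) = 0 := by
    refine co_next_eq hK h1 tblP_ok hx l35 hqP' c35 ?_
    simp [hq', co_quad hK H28 hmem]
  have c31 := co_sigma0 hK (show chkSig P2 35 = true by decide +kernel) h2.mem h2.memG c35'
  have c42 := co_sigma0 hK (show chkSig P2 36 = true by decide +kernel) h2.mem h2.memG c36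
  rw [rr_pairs.2.2.2.1] at c31
  rw [rr_pairs.2.2.2.2.2.2.1] at c42
  have c28 := h2.kernel1 hK tblP_ok hx l35
  have c30 := h2.kernel1 hK tblP_ok hx l31
  have c29 : co P2 29 (next [33, 24] q' r1) = 0 := by
    simpa [c28, c35'] using h2.kernel hK tblP_ok hx l36
  have c41 := co_sigma0 hK (show chkSig P2 29 = true by decide +kernel) h2.mem h2.memG c29
  rw [rr_pairs.2.2.2.2.1] at c41
  refine ⟨_, h2.shrink hK (L := [35, 31, 36, 42, 28, 30, 29, 41]) (by decide +kernel)
    (by decide +kernel) ?_ (by decide +kernel)⟩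
  simp [c35', c31, c36, c42, c28, c30, c29, c41]

theorem one_step3 (h : St hK [33, 24] P3 v r) : ∃ r', St hK [33, 24] P4 v r' := by
  haveI := charTwo hK
  obtain ⟨-, hx, hxG⟩ := xw_P hK
  have H37 : Co P3 37 := co_of_chk (by decide +kernel)
  have l38 : chkLin tblP P3 38 [37] = true := by decide +kernel
  set s := co P3 38 r ^ (2 * θ) with hs
  set q := pe m 37 32 s with hq
  have h37 : 37 ∈ P3 := by decide +kernel
  have h32 : 32 ∈ P3 := by decide +kernel
  have hqP : q ∈ UP K P3 := pe_mem_UP hK H37.all h37 h32 s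
  have h1 := h.step hK tblP_ok hx l38 hxG hqP (p7_mem hK s)
  have c38 : co P3 38 (next [33, 24] q r) = 0 := by
    refine co_next_eq hK h tblP_ok hx l38 hqP rfl ?_
    simp [hq, co_pe hK H37 h37 h32, hs, two_theta hK]
  have c37 := h1.kernel1 hK tblP_ok hx l38
  have c43 := co_sigma0 hK (show chkSig P3 38 = true by decide +kernel) h1.mem h1.memG c38
  have c32 := co_sigma0 hK (show chkSig P3 37 = true by decide +kernel) h1.mem h1.memG c37
  rw [rr_pairs.2.2.2.2.2.2.2.2.2.2.1] at c43
  rw [rr_pairs.2.2.2.2.2.2.2.2.2.1] at c32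
  refine ⟨_, h1.shrink hK (L := [38, 43, 37, 32]) (by decide +kernel) (by decide +kernel) ?_
    (by decide +kernel)⟩
  simp [c38, c43, c37, c32]

theorem one_step4 (h : St hK [33, 24] P4 v r) : ∃ r', St hK [33, 24] [39, 45] v r' := by
  haveI := charTwo hK
  obtain ⟨-, hx, hxG⟩ := xw_P hK
  have H40 : Co P4 40 := co_of_chk (by decide +kernel)
  have l44 : chkLin tblP P4 44 [40] = true := by decide +kernel
  set u := co P4 44 r with hu
  set q := quadEl m 35 31 40 46 (0 : K) u with hq
  have h40 : 40 ∈ P4 := by decide +kernel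
  have h46 : 46 ∈ P4 := by decide +kernel
  have hqP : q ∈ UP K P4 := quad_zero_mem hK H40.all h40 h46 u
  have h1 := h.step hK tblP_ok hx l44 hxG hqP (q6_mem hK 0 u)
  have c44 : co P4 44 (next [33, 24] q r) = 0 := by
    refine co_next_eq hK h tblP_ok hx l44 hqP rfl ?_
    simp [hq, co_quad_zero hK H40 h40 h46, hu]
  have c40 := h1.kernel1 hK tblP_ok hx l44
  have c47 := co_sigma0 hK (show chkSig P4 44 = true by decide +kernel) h1.mem h1.memG c44
  have c46 := co_sigma0 hK (show chkSig P4 40 = true by decide +kernel) h1.mem h1.memG c40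
  rw [rr_pairs.2.2.2.2.2.2.2.2.1] at c47
  rw [rr_pairs.2.2.2.2.2.2.2.1] at c46
  refine ⟨_, h1.shrink hK (L := [40, 46, 44, 47]) (by decide +kernel) (by decide +kernel) ?_
    (by decide +kernel)⟩
  simp [c44, c40, c47, c46]

theorem last_pair {g : GL chevF4.Idx K} (hg : g ∈ UP K [39, 45]) (hG : g ∈ G1) :
    ∃ a : K, g = Sys.xG S K 39 a * Sys.xG S K 45 (a ^ (2 * θ)) := by
  haveI := charTwo hK
  have H : Co [39, 45] 39 := co_of_chk (by decide +kernel)
  have H' : Co [39, 45] 45 := co_of_chk (by decide +kernel)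
  set a := co [39, 45] 39 g with ha
  refine ⟨a, ?_⟩
  have hb : co [39, 45] 45 g = a ^ (2 * θ) := by
    have := co_sigma hK (show chkSig [39, 45] 39 = true by decide +kernel) hg hG
    rwa [rr_pairs.2.2.2.2.2.2.2.2.2.2.2, (by decide +kernel : ee 39 = 2)] at this
  set p := Sys.xG S K 39 a * Sys.xG S K 45 (a ^ (2 * θ)) with hp
  have hpm : p ∈ UP K [39, 45] :=
    mul_mem (xG_mem H.all (by simp) _) (xG_mem H.all (by simp) _)
  have hm : p⁻¹ * g ∈ UP K [39, 45] := mul_mem (inv_mem hpm) hg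
  have h0 : ∀ u ∈ [39, 45], co [39, 45] u (p⁻¹ * g) = 0 := by
    intro u hu
    simp only [List.mem_cons, List.not_mem_nil, or_false] at hu
    have Hu : Co [39, 45] u := by rcases hu with rfl | rfl <;> assumption
    rw [co_mul Hu (inv_mem hpm) hg, co_inv Hu hpm, CharTwo.neg_eq, hp,
      co_mul Hu (xG_mem H.all (by simp) _) (xG_mem H.all (by simp) _),
      co_xG Hu (by simp), co_xG Hu (by simp)]
    rcases hu with rfl | rfl <;> simp [hb, ← ha, CharTwo.add_self_eq_zero]
  have := UP_nil (P := without [39, 45] [39, 45]) (by decide) (mem_without H.cl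
    (fun u hu => by
      simp only [List.mem_cons, List.not_mem_nil, or_false] at hu
      rcases hu with rfl | rfl <;> assumption) hm h0)
  rwa [inv_mul_eq_one, eq_comm] at this

theorem idI1 : eq2B chevF4
    ([(37, [(1, 0, 1)]), (32, [(1, 1, 0)])] ++ [(33, [(1, 0, 0)]), (24, [(1, 0, 0)])] ++
      [(39, [(1, 1, 0)]), (45, [(1, 0, 2)])])
    ([(33, [(1, 0, 0)]), (24, [(1, 0, 0)])] ++ [(38, [(1, 0, 1)]), (43, [(1, 1, 0)])] ++
      [(37, [(1, 0, 1)]), (32, [(1, 1, 0)])]) = true := by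
  clear hK
  decide +kernel

theorem idI2 : eq2B chevF4
    ([(35, [(1, 0, 1)]), (31, [(1, 1, 0)]), (40, [(1, 1, 1)]),
        (29, [(1, 0, 1)]), (41, [(1, 1, 0)]), (44, [(1, 1, 1)])] ++
      [(33, [(1, 0, 0)]), (24, [(1, 0, 0)])])
    ([(33, [(1, 0, 0)]), (24, [(1, 0, 0)])] ++ [(38, [(1, 1, 0)]), (43, [(1, 0, 2)])] ++
      [(35, [(1, 0, 1)]), (31, [(1, 1, 0)]), (40, [(1, 1, 1)]),
        (29, [(1, 0, 1)]), (41, [(1, 1, 0)]), (44, [(1, 1, 1)])]) = true := by
  clear hK
  decide +kernel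

/-- Case one. -/
theorem caseOne (hv : v ∈ UP K posR) (hG : v ∈ G1) (h2 : v * v = 1) (h33 : co posR 33 v = 1) :
    Cj hK v (xw K [33, 24]) := by
  haveI := charTwo hK
  obtain ⟨hxe, hx, hxG⟩ := xw_P hK
  have H : Co posR 33 := co_of_chk (by decide +kernel)
  have H' : Co posR 24 := co_of_chk (by decide +kernel)
  have h24 : co posR 24 v = 1 := by
    have := co_sigma hK (show chkSig posR 33 = true by decide +kernel) hv hG
    rwa [rr_pairs.1, h33, one_pow] at this
  have m33 : 33 ∈ posR := by decide +kernel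
  have m24 : 24 ∈ posR := by decide +kernel
  have hxP : xw K [33, 24] ∈ UP K posR := hxe ▸ pe_mem_UP hK H.all m33 m24 1
  have hxr : xw K [33, 24] * (xw K [33, 24] * v) = v := by rw [← mul_assoc, hx, one_mul]
  have h0 : ∀ u ∈ [33, 24], co posR u (xw K [33, 24] * v) = 0 := by
    intro u hu
    simp only [List.mem_cons, List.not_mem_nil, or_false] at hu
    rcases hu with rfl | rfl
    · rw [co_mul H hxP hv, h33, hxe, co_pe hK H m33 m24]
      simp [CharTwo.add_self_eq_zero]
    · rw [co_mul H' hxP hv, h24, hxe, co_pe hK H' m33 m24]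
      simp [CharTwo.add_self_eq_zero]
  have hst : St hK [33, 24] P1 v (xw K [33, 24] * v) := by
    refine ⟨mem_without H.cl (fun u hu => ?_) (mul_mem hxP hv) h0, mul_mem hxG hG, ?_, ?_⟩
    · simp only [List.mem_cons, List.not_mem_nil, or_false] at hu
      rcases hu with rfl | rfl <;> assumption
    · rw [hxr]; exact Cj.refl hK v
    · rw [hxr]; exact h2
  obtain ⟨r1, s1⟩ := one_step1 hK hst
  obtain ⟨r2, s2⟩ := one_step2 hK s1
  obtain ⟨r3, s3⟩ := one_step3 hK s2
  obtain ⟨r4, s4⟩ := one_step4 hK s3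
  obtain ⟨a, ha⟩ := last_pair hK s4.mem s4.memG
  have e1 : pe m 37 32 a * (xw K [33, 24] * r4) =
      xw K [33, 24] * pe m 38 43 a * pe m 37 32 a := by
    have h := eq2_sound S (idI1 hK) a (a ^ θ)
    rw [ha]
    simpa [ew_cons, ew_nil, pev, xw, Sys.xProd_cons, Sys.xProd_nil, pe, mul_assoc, ← pow_mul,
      mul_comm θ 2] using h
  set t := a ^ θ with ht
  have e2 : quadEl m 35 31 40 46 t 0 * quadEl m 29 41 44 47 t 0 * xw K [33, 24] =
      xw K [33, 24] * pe m 38 43 a * (quadEl m 35 31 40 46 t 0 * quadEl m 29 41 44 47 t 0) := by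
    have h := eq2_sound S (idI2 hK) t (t ^ θ)
    have ha2 : (t ^ θ) ^ 2 = a := by
      rw [ht, ← pow_mul, ← pow_mul, show θ * (θ * 2) = 2 * θ * θ by ring]
      exact sq_pow hK a
    have ha3 : t ^ (θ + 1) = t * t ^ θ := by rw [pow_succ, mul_comm]
    simp only [ew_append, ew_cons, ew_nil] at h
    simpa [pev, xw, Sys.xProd_cons, Sys.xProd_nil, pe, quadEl, mul_assoc, ha2, ha3, ← ht,
      Sys.xG_zero, zero_tp hK] using h
  refine s4.cj.trans hK ((Cj.of_comm hK (p7_mem hK a) e1).trans hK (Cj.symm hK ?_))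
  exact Cj.of_comm hK (mul_mem (q6_mem hK t 0) (q4_mem hK t 0)) e2

end CfsgLib.TwistedLie.F4Inv
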