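import Cfsg.Agent.TwistedLie.InvF4.Lists

/-!
An involution with vanishing coordinate on the pair and nonzero coordinate on the class is conjugate
to the element of the class, or to an involution with nonzero coordinate on the pair.
-/

set_option autoImplicit false

namespace CfsgLib.TwistedLie.F4Inv

open Cfsg.Lie CfsgLib.Chevalley CfsgLib.TwistedLie.F4
open Mod2 (ew ew_append ew_cons ew_nil eq2B eq2_sound)

local notation "S" => sysF4

theorem idI3 : eq2B chevF4
    ([(38, [((1 : ℤ), 0, 1)]), (43, [(1, 1, 0)]), (36, [(1, 0, 1)]), (42, [(1, 1, 0)])] ++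
      [(28, [(1, 0, 0)]), (30, [(1, 0, 0)])] ++ [(44, [(1, 1, 0)]), (47, [(1, 0, 2)])])
    ([(28, [(1, 0, 0)]), (30, [(1, 0, 0)])] ++ [(39, [(1, 0, 1)]), (45, [(1, 1, 0)])] ++
      [(38, [(1, 0, 1)]), (43, [(1, 1, 0)]), (36, [(1, 0, 1)]), (42, [(1, 1, 0)])]) = true := by
  decide +kernel

theorem idI4 : eq2B chevF4 [(29, [((1 : ℤ), 1, 0)]), (41, [(1, 0, 1)]), (29, [(1, 1, 0)]), (41, [(1, 0, 1)])]
    [(44, [(1, 1, 1)]), (47, [(1, 2, 1)])] = true := by decide +kernel

theorem idCentral : ∀ a ∈ [29, 41, 44, 47], ∀ c ∈ [44, 47],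
    eq2B chevF4 [(a, [((1 : ℤ), 1, 0)]), (c, [(1, 0, 1)])] [(c, [(1, 0, 1)]), (a, [(1, 1, 0)])] =
      true := by decide +kernel

theorem rot : ∀ w ∈ [(28, 44), (30, 47), (39, 33), (45, 24)],
    wL chevF4 (blkN 0) (wL chevF4 (blkN 1) (wL chevF4 (blkN 0) (wL chevF4 (blkN 1) w.1))) = w.2 := by
  decide +kernel

variable {K : Type*} [Field K] [Fintype K] {m : ℕ} (hK : Fintype.card K = 2 ^ (2 * m + 1))
include hK

local notation "G1" => chevF4.genSubgroup K (f4Words K (2 ^ m))
local notation "θ" => 2 ^ m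

variable {v r : GL chevF4.Idx K}

theorem two_step1 (h : St hK [28, 30] Q1 v r) (h33 : co Q1 33 r = 0) :
    ∃ r', St hK [28, 30] Q2 v r' := by
  haveI := charTwo hK
  obtain ⟨-, hx, hxG⟩ := xw_Q hK
  have H33 : Co Q1 33 := co_of_chk (by decide +kernel)
  have H34 : Co Q1 34 := co_of_chk (by decide +kernel)
  have l33 : chkLin tblQ Q1 33 [] = true := by decide +kernel
  have l35 : chkLin tblQ Q1 35 [33] = true := by decide +kernel
  have l37 : chkLin tblQ Q1 37 [33, 34] = true := by decide +kernel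
  set s := co Q1 35 r ^ (2 * θ) with hs
  set q := pe m 33 24 s with hq
  have m33 : 33 ∈ Q1 := by decide +kernel
  have m24 : 24 ∈ Q1 := by decide +kernel
  have hqP : q ∈ UP K Q1 := pe_mem_UP hK H33.all m33 m24 s
  have h1 := h.step hK tblQ_ok hx l35 hxG hqP (p1_mem hK s)
  set r1 := next [28, 30] q r with hr1
  have c35 : co Q1 35 r1 = 0 := by
    refine co_next_eq hK h tblQ_ok hx l35 hqP rfl ?_
    simp [hq, co_pe hK H33 m33 m24, hs, two_theta hK]
  have c33 : co Q1 33 r1 = 0 := co_next_eq hK h tblQ_ok hx l33 hqP h33 (by simp)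
  set s' := co Q1 37 r1 ^ (2 * θ) with hs'
  set q' := quadEl m 34 26 36 42 s' (0 : K) with hq'
  have hmem : ∀ r ∈ [34, 26, 36, 42], r ∈ Q1 := by decide +kernel
  have hqP' : q' ∈ UP K Q1 := quad_mem_UP hK H33.all hmem s' 0
  have h2 := h1.step hK tblQ_ok hx l37 hxG hqP' (q2_mem hK s' 0)
  set r2 := next [28, 30] q' r1 with hr2
  have c37 : co Q1 37 r2 = 0 := by
    refine co_next_eq hK h1 tblQ_ok hx l37 hqP' rfl ?_
    simp [hq', co_quad hK H33 hmem, co_quad hK H34 hmem, hs', two_theta hK]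
  have c35' : co Q1 35 r2 = 0 := by
    refine co_next_eq hK h1 tblQ_ok hx l35 hqP' c35 ?_
    simp [hq', co_quad hK H33 hmem]
  have c33' : co Q1 33 r2 = 0 := co_next_eq hK h1 tblQ_ok hx l33 hqP' c33 (by simp)
  have c34 : co Q1 34 r2 = 0 := by simpa [c33'] using h2.kernel hK tblQ_ok hx l37
  have c24 := co_sigma0 hK (show chkSig Q1 33 = true by decide +kernel) h2.mem h2.memG c33'
  have c26 := co_sigma0 hK (show chkSig Q1 34 = true by decide +kernel) h2.mem h2.memG c34
  have c31 := co_sigma0 hK (show chkSig Q1 35 = true by decide +kernel) h2.mem h2.memG c35'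
  have c32 := co_sigma0 hK (show chkSig Q1 37 = true by decide +kernel) h2.mem h2.memG c37
  rw [rr_pairs.1] at c24
  rw [rr_pairs.2.2.1] at c26
  rw [rr_pairs.2.2.2.1] at c31
  rw [rr_pairs.2.2.2.2.2.2.2.2.2.1] at c32
  refine ⟨_, h2.shrink hK (L := [33, 24, 34, 26, 35, 31, 37, 32]) (by decide +kernel)
    (by decide +kernel) ?_ (by decide +kernel)⟩
  simp [c33', c24, c34, c26, c35', c31, c37, c32]

theorem two_step2 (h : St hK [28, 30] Q2 v r) :
    ∃ r', St hK [28, 30] [29, 41, 44, 47] v r' := by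
  haveI := charTwo hK
  obtain ⟨-, hx, hxG⟩ := xw_Q hK
  have H36 : Co Q2 36 := co_of_chk (by decide +kernel)
  have H38 : Co Q2 38 := co_of_chk (by decide +kernel)
  have l39 : chkLin tblQ Q2 39 [36] = true := by decide +kernel
  have l40 : chkLin tblQ Q2 40 [36, 38] = true := by decide +kernel
  set u := co Q2 39 r with hu
  set q := quadEl m 34 26 36 42 (0 : K) u with hq
  have m36 : 36 ∈ Q2 := by decide +kernel
  have m42 : 42 ∈ Q2 := by decide +kernel
  have m38 : 38 ∈ Q2 := by decide +kernel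
  have m43 : 43 ∈ Q2 := by decide +kernel
  have hqP : q ∈ UP K Q2 := quad_zero_mem hK H36.all m36 m42 u
  have h1 := h.step hK tblQ_ok hx l39 hxG hqP (q2_mem hK 0 u)
  set r1 := next [28, 30] q r with hr1
  have c39 : co Q2 39 r1 = 0 := by
    refine co_next_eq hK h tblQ_ok hx l39 hqP rfl ?_
    simp [hq, co_quad_zero hK H36 m36 m42, hu]
  set s := co Q2 40 r1 ^ (2 * θ) with hs
  set q' := pe m 38 43 s with hq'
  have hqP' : q' ∈ UP K Q2 := pe_mem_UP hK H36.all m38 m43 s
  have h2 := h1.step hK tblQ_ok hx l40 hxG hqP' (p3_mem hK s)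
  set r2 := next [28, 30] q' r1 with hr2
  have c40 : co Q2 40 r2 = 0 := by
    refine co_next_eq hK h1 tblQ_ok hx l40 hqP' rfl ?_
    simp [hq', co_pe hK H36 m38 m43, co_pe hK H38 m38 m43, hs, two_theta hK]
  have c39' : co Q2 39 r2 = 0 := by
    refine co_next_eq hK h1 tblQ_ok hx l39 hqP' c39 ?_
    simp [hq', co_pe hK H36 m38 m43]
  have c36 := h2.kernel1 hK tblQ_ok hx l39
  have c38 : co Q2 38 r2 = 0 := by simpa [c36] using h2.kernel hK tblQ_ok hx l40
  have c42 := co_sigma0 hK (show chkSig Q2 36 = true by decide +kernel) h2.mem h2.memG c36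
  have c43 := co_sigma0 hK (show chkSig Q2 38 = true by decide +kernel) h2.mem h2.memG c38
  have c45 := co_sigma0 hK (show chkSig Q2 39 = true by decide +kernel) h2.mem h2.memG c39'
  have c46 := co_sigma0 hK (show chkSig Q2 40 = true by decide +kernel) h2.mem h2.memG c40
  rw [rr_pairs.2.2.2.2.2.2.1] at c42
  rw [rr_pairs.2.2.2.2.2.2.2.2.2.2.1] at c43
  rw [rr_pairs.2.2.2.2.2.2.2.2.2.2.2] at c45
  rw [rr_pairs.2.2.2.2.2.2.2.1] at c46
  refine ⟨_, h2.shrink hK (L := [36, 42, 38, 43, 39, 45, 40, 46]) (by decide +kernel)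
    (by decide +kernel) ?_ (by decide +kernel)⟩
  simp [c36, c42, c38, c43, c39', c45, c40, c46]

/-- The last layer of the second case: `r` is one element of the second pair of the last class. -/
theorem last_quad (h : St hK [28, 30] [29, 41, 44, 47] v r) :
    ∃ C : K, r = Sys.xG S K 44 C * Sys.xG S K 47 (C ^ (2 * θ)) := by
  haveI := charTwo hK
  obtain ⟨-, hx, -⟩ := xw_Q hK
  set P := [29, 41, 44, 47] with hP
  have H : Co P 29 := co_of_chk (by rw [hP]; decide +kernel)
  have H' : Co P 41 := co_of_chk (by rw [hP]; decide +kernel)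
  have J : Co [44, 47] 44 := co_of_chk (by decide +kernel)
  have J' : Co [44, 47] 47 := co_of_chk (by decide +kernel)
  have cent : ∀ a ∈ P, ∀ c ∈ [44, 47], ∀ t s : K,
      Sys.xG S K a t * Sys.xG S K c s = Sys.xG S K c s * Sys.xG S K a t := by
    intro a ha c hc t s
    have := eq2_sound S (idCentral a ha c hc) t s
    simpa [ew_cons, ew_nil, pev] using this
  -- The involution commutes with the last class.
  have hxc : xw K [28, 30] * r * xw K [28, 30] = r := by
    have hmul : ∀ a b : GL chevF4.Idx K, xw K [28, 30] * (a * b) * xw K [28, 30] =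
        (xw K [28, 30] * a * xw K [28, 30]) * (xw K [28, 30] * b * xw K [28, 30]) := by
      intro a b
      calc _ = xw K [28, 30] * a * 1 * b * xw K [28, 30] := by group
        _ = _ := by rw [← hx]; group
    let M : Subgroup (GL chevF4.Idx K) :=
      { carrier := {g | xw K [28, 30] * g * xw K [28, 30] = g}
        one_mem' := by simp [hx]
        mul_mem' := fun {a b} (ha : _ = a) (hb : _ = b) => by
          show _ = a * b
          rw [hmul, ha, hb]
        inv_mem' := fun {a} (ha : _ = a) => by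
          show _ = a⁻¹
          refine eq_inv_of_mul_eq_one_left ?_
          nth_rw 2 [← ha]
          rw [← hmul, inv_mul_cancel, mul_one, hx] }
    refine (Sys.uSub_le S K (H := M) fun w hw _ _ t => ?_) h.mem
    show _ = Sys.xG S K w t
    have hrow : (w, [(w, [((1 : ℤ), 1, 0)])]) ∈ tblQ :=
      (by decide +kernel : ∀ w ∈ [29, 41, 44, 47], (w, [(w, [((1 : ℤ), 1, 0)])]) ∈ tblQ) w hw
    simpa [ew_cons, ew_nil, pev] using tab_conj tblQ_ok hrow t
  have hrr : r * r = 1 := by
    have e := h.sq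
    rw [← mul_assoc, hxc] at e
    exact e
  set A := co P 29 r with hA
  have hB : co P 41 r = A ^ (2 * θ) := by
    have := co_sigma hK (show chkSig P 29 = true by rw [hP]; decide +kernel) h.mem h.memG
    rwa [rr_pairs.2.2.2.2.1, (by decide +kernel : ee 29 = 2)] at this
  set s := A ^ (2 * θ) with hsdef
  set q := quadEl m 29 41 44 47 s (0 : K) with hq
  have hmem : ∀ r ∈ [29, 41, 44, 47], r ∈ P := fun r hr => hr
  have hqP : q ∈ UP K P := quad_mem_UP hK H.all hmem s 0
  have hw : q⁻¹ * r ∈ UP K [44, 47] := by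
    have hw0 : q⁻¹ * r ∈ UP K P := mul_mem (inv_mem hqP) h.mem
    refine (by decide : without [29, 41, 44, 47] [29, 41] = [44, 47]) ▸
      mem_without (L := [29, 41]) H.cl (fun u hu => ?_) hw0 fun u hu => ?_
    · simp only [List.mem_cons, List.not_mem_nil, or_false] at hu
      rcases hu with rfl | rfl <;> assumption
    · simp only [List.mem_cons, List.not_mem_nil, or_false] at hu
      rcases hu with rfl | rfl
      · rw [co_mul H (inv_mem hqP) h.mem, co_inv H hqP, CharTwo.neg_eq, hq, co_quad hK H hmem]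
        simp [hsdef, two_theta hK, ← hA, CharTwo.add_self_eq_zero]
      · rw [co_mul H' (inv_mem hqP) h.mem, co_inv H' hqP, CharTwo.neg_eq, hq, co_quad hK H' hmem]
        simp [hB, CharTwo.add_self_eq_zero]
  set w := q⁻¹ * r with hwdef
  set C := co [44, 47] 44 w with hC
  have hwG : w ∈ G1 := mul_mem (inv_mem (q4_mem hK s 0)) h.memG
  have hD : co [44, 47] 47 w = C ^ (2 * θ) := by
    have := co_sigma hK (show chkSig [44, 47] 44 = true by decide +kernel) hw hwG
    rwa [rr_pairs.2.2.2.2.2.2.2.2.1, (by decide +kernel : ee 44 = 2)] at this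
  set p := Sys.xG S K 44 C * Sys.xG S K 47 (C ^ (2 * θ)) with hp
  have hpm : p ∈ UP K [44, 47] := mul_mem (xG_mem J.all (by simp) _) (xG_mem J.all (by simp) _)
  have hwp : w = p := by
    have h0 : ∀ u ∈ [44, 47], co [44, 47] u (p⁻¹ * w) = 0 := by
      intro u hu
      simp only [List.mem_cons, List.not_mem_nil, or_false] at hu
      have Hu : Co [44, 47] u := by rcases hu with rfl | rfl <;> assumption
      rw [co_mul Hu (inv_mem hpm) hw, co_inv Hu hpm, CharTwo.neg_eq, hp,
        co_mul Hu (xG_mem J.all (by simp) _) (xG_mem J.all (by simp) _),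
        co_xG Hu (by simp), co_xG Hu (by simp)]
      rcases hu with rfl | rfl <;> simp [hD, ← hC, CharTwo.add_self_eq_zero]
    have := UP_nil (P := without [44, 47] [44, 47]) (by decide) (mem_without J.cl
      (fun u hu => by
        simp only [List.mem_cons, List.not_mem_nil, or_false] at hu
        rcases hu with rfl | rfl <;> assumption) (mul_mem (inv_mem hpm) hw) h0)
    exact (inv_mul_eq_one.mp this).symm
  set g := Sys.xG S K 29 A * Sys.xG S K 41 s with hg
  set z := Sys.xG S K 44 (s ^ (θ + 1)) * p with hz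
  have hr : r = g * z := by
    have e : r = q * w := by rw [hwdef, mul_inv_cancel_left]
    rw [e, hwp, hq, hg, hz, quadEl, hsdef, two_theta hK, ← hsdef]
    simp [zero_tp hK, Sys.xG_zero, mul_assoc]
  have hgz : Commute g z := by
    have c1 : ∀ a ∈ P, ∀ t : K, Commute (Sys.xG S K a t) z := fun a ha t =>
      Commute.mul_right (cent a ha 44 (by simp) t _)
        (Commute.mul_right (cent a ha 44 (by simp) t _) (cent a ha 47 (by simp) t _))
    exact Commute.mul_left (c1 29 (by simp [hP]) _) (c1 41 (by simp [hP]) _)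
  have hz2 : z * z = 1 := by
    have e : z = Sys.xG S K 44 (s ^ (θ + 1) + C) * Sys.xG S K 47 (C ^ (2 * θ)) := by
      rw [hz, hp, ← Sys.xG_add, mul_assoc]
    have c2 : ∀ t u : K, Commute (Sys.xG S K 44 t) (Sys.xG S K 47 u) := fun t u =>
      cent 44 (by simp [hP]) 47 (by simp) t u
    rw [e, mul_assoc, ← mul_assoc (Sys.xG S K 47 _), ← (c2 _ _).eq, mul_assoc, ← mul_assoc,
      Sys.xG_add, Sys.xG_add, CharTwo.add_self_eq_zero, CharTwo.add_self_eq_zero, Sys.xG_zero,
      Sys.xG_zero, one_mul]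
  have hgg : g * g = 1 := by
    have e : r * r = g * g * (z * z) := by
      rw [hr, mul_assoc, ← mul_assoc z, ← hgz.eq, mul_assoc g z z, ← mul_assoc]
    rwa [hrr, hz2, mul_one, eq_comm] at e
  have hAs : A * s = 0 := by
    have e := eq2_sound S idI4 A s
    simp only [ew_cons, ew_nil, pev] at e
    have e' : Sys.xG S K 44 (A * s) * Sys.xG S K 47 (A ^ 2 * s) = 1 := by
      rw [← hgg, hg]
      simpa [mul_assoc] using e.symm
    have := congrArg (co [44, 47] 44) e'
    rw [co_mul J (xG_mem J.all (by simp) _) (xG_mem J.all (by simp) _), co_xG J (by simp),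
      co_xG J (by simp), co_one J] at this
    simpa using this
  have hA0 : A = 0 := by
    rcases mul_eq_zero.mp hAs with h0 | h0
    · exact h0
    · exact eq_zero_of_pow_eq_zero h0
  refine ⟨C, ?_⟩
  rw [hr, hg, hz, hsdef, hA0]
  simp [zero_tp hK, Sys.xG_zero, hp]

/-- Case two. -/
theorem caseTwo (h : St hK [28, 30] Q1 v r) (h33 : co Q1 33 r = 0) :
    Cj hK v (xw K [28, 30]) ∨
      ∃ v', Cj hK v v' ∧ v' ∈ UP K posR ∧ co posR 33 v' ≠ 0 := by
  haveI := charTwo hK
  obtain ⟨hxe, hx, hxG⟩ := xw_Q hK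
  obtain ⟨r1, s1⟩ := two_step1 hK h h33
  obtain ⟨r2, s2⟩ := two_step2 hK s1
  obtain ⟨C, hC⟩ := last_quad hK s2
  by_cases h0 : C = 0
  · left
    have e : r2 = 1 := by rw [hC, h0]; simp [zero_tp hK, Sys.xG_zero]
    simpa [e] using s2.cj
  right
  set u := C ^ θ with hu
  have hu2 : u ^ (2 * θ) = C := theta_two hK C
  have hu3 : u ^ 2 = C ^ (2 * θ) := by rw [hu, ← pow_mul, mul_comm]
  set g := pe m 38 43 C * quadEl m 34 26 36 42 0 u with hg
  set h' := xw K [28, 30] * pe m 39 45 C with hh'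
  have e : g * (xw K [28, 30] * r2) = h' * g := by
    have h3 := eq2_sound S idI3 C u
    rw [hC]
    simpa [ew_cons, ew_nil, pev, xw, Sys.xProd_cons, Sys.xProd_nil, hg, hh', pe, quad_zero hK,
      mul_assoc, hu2, hu3, ← hu] using h3
  have c1 : Cj hK v h' :=
    s2.cj.trans hK (Cj.of_comm hK (mul_mem (p3_mem hK C) (q2_mem hK 0 u)) e)
  set k := nL S K (blkN 0) * nL S K (blkN 1) * nL S K (blkN 0) * nL S K (blkN 1) with hk
  have hkG : k ∈ G1 :=
    mul_mem (mul_mem (mul_mem (n_mem hK 0) (n_mem hK 1)) (n_mem hK 0)) (n_mem hK 1)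
  have hkx : ∀ w ∈ [(28, 44), (30, 47), (39, 33), (45, 24)], ∀ t : K,
      k * Sys.xG S K w.1 t * k⁻¹ = Sys.xG S K w.2 t := by
    intro w hw t
    have hlt : ∀ i j : Fin 2, wL chevF4 (blkN i) (wL chevF4 (blkN j) w.1) < 48 ∧
        wL chevF4 (blkN i) w.1 < 48 ∧
        wL chevF4 (blkN i) (wL chevF4 (blkN j) (wL chevF4 (blkN i) w.1)) < 48 :=
      (by decide +kernel : ∀ r ∈ [28, 30, 39, 45], ∀ i j : Fin 2,
        wL chevF4 (blkN i) (wL chevF4 (blkN j) r) < 48 ∧ wL chevF4 (blkN i) r < 48 ∧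
        wL chevF4 (blkN i) (wL chevF4 (blkN j) (wL chevF4 (blkN i) r)) < 48) w.1 (by
          fin_cases hw <;> simp)
    have h48 : w.1 < 48 := by fin_cases hw <;> decide
    rw [← rot w hw, ← nL_conj_one (blkN_lt 0) (hlt 1 0).2.2, ← nL_conj_one (blkN_lt 1) (hlt 0 1).1,
      ← nL_conj_one (blkN_lt 0) (hlt 1 1).2.1, ← nL_conj_one (blkN_lt 1) h48, hk]
    group
  have e' : k * h' * k⁻¹ = Sys.xG S K 44 1 * Sys.xG S K 47 1 * pe m 33 24 C := by
    rw [← hkx (28, 44) (by simp), ← hkx (30, 47) (by simp), pe,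
      ← hkx (39, 33) (by simp), ← hkx (45, 24) (by simp), hh', pe]
    simp [xw, Sys.xProd_cons, Sys.xProd_nil, mul_assoc]
  have H : Co posR 33 := co_of_chk (by decide +kernel)
  have m44 : 44 ∈ posR := by decide +kernel
  have m47 : 47 ∈ posR := by decide +kernel
  have m33 : 33 ∈ posR := by decide +kernel
  have m24 : 24 ∈ posR := by decide +kernel
  refine ⟨_, c1.trans hK ⟨k, hkG, e'⟩,
    mul_mem (mul_mem (xG_mem H.all m44 _) (xG_mem H.all m47 _)) (pe_mem_UP hK H.all m33 m24 C), ?_⟩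
  rw [co_mul H (mul_mem (xG_mem H.all m44 _) (xG_mem H.all m47 _)) (pe_mem_UP hK H.all m33 m24 C),
    co_mul H (xG_mem H.all m44 _) (xG_mem H.all m47 _), co_xG H m44, co_xG H m47,
    co_pe hK H m33 m24]
  simpa using pow_ne_zero θ h0

end CfsgLib.TwistedLie.F4Inv
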