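import Cfsg.Agent.TwistedLie.InvF4.Data
import Cfsg.Agent.Chevalley.InvCoord

/-!
Coordinates in the positive unipotent subgroup of `F₄`, and the linear maps induced on them by an
involution given by a table.
-/

set_option autoImplicit false

namespace CfsgLib.TwistedLie.F4Inv

open Cfsg.Lie CfsgLib.Chevalley
open Mod2 (ew ew_append ew_cons ew_nil eq2B eq2_sound)

local notation "S" => sysF4

/-- The roots of a list, as a set. -/
abbrev rs (P : List ℕ) : Set ℕ := {r | r ∈ P}

/-- The roots of a list other than those of another. -/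
def without (P L : List ℕ) : List ℕ := P.filter fun r => !L.contains r

/-- The positive roots, each with its coordinates read in base sixteen. -/
def codeL : List (ℕ × ℕ) := [(24, 4096), (25, 256), (26, 4352), (27, 16), (28, 272), (29, 4368), (30, 288), (31, 4384), (32, 4640), (33, 1), (34, 17), (35, 273), (36, 4369), (37, 289), (38, 4385), (39, 4641), (40, 4657), (41, 290), (42, 4386), (43, 4642), (44, 4658), (45, 4674), (46, 4930), (47, 9026)]

/-- Triples of positive roots, the third a positive combination of the first two. -/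
def comb : List (ℕ × ℕ × ℕ) := [(24, 25, 26), (24, 28, 29), (24, 28, 32), (24, 30, 31), (24, 35, 36), (24, 35, 43), (24, 37, 38), (24, 37, 45),
  (24, 41, 42), (24, 46, 47), (25, 24, 26), (25, 27, 28), (25, 27, 30), (25, 31, 32), (25, 34, 35), (25, 34, 41),
  (25, 38, 39), (25, 38, 47), (25, 42, 43), (25, 45, 46), (26, 27, 29), (26, 27, 31), (26, 30, 32), (26, 34, 36),
  (26, 34, 42), (26, 37, 39), (26, 37, 46), (26, 41, 43), (26, 45, 47), (27, 25, 28), (27, 25, 30), (27, 26, 29),
  (27, 26, 31), (27, 28, 30), (27, 29, 31), (27, 33, 34), (27, 35, 37), (27, 36, 38), (27, 39, 40), (27, 43, 44),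
  (27, 43, 45), (27, 44, 45), (28, 24, 29), (28, 24, 32), (28, 27, 30), (28, 29, 32), (28, 33, 35), (28, 34, 37),
  (28, 36, 39), (28, 38, 40), (28, 42, 44), (28, 42, 46), (28, 44, 46), (29, 27, 31), (29, 28, 32), (29, 33, 36),
  (29, 34, 38), (29, 35, 39), (29, 37, 40), (29, 41, 44), (29, 41, 47), (29, 44, 47), (30, 24, 31), (30, 26, 32),
  (30, 33, 37), (30, 33, 41), (30, 36, 40), (30, 36, 47), (30, 42, 45), (30, 43, 46), (31, 25, 32), (31, 33, 38),
  (31, 33, 42), (31, 35, 40), (31, 35, 46), (31, 41, 45), (31, 43, 47), (32, 33, 39), (32, 33, 43), (32, 34, 40),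
  (32, 34, 45), (32, 41, 46), (32, 42, 47), (33, 27, 34), (33, 28, 35), (33, 29, 36), (33, 30, 37), (33, 30, 41),
  (33, 31, 38), (33, 31, 42), (33, 32, 39), (33, 32, 43), (33, 37, 41), (33, 38, 42), (33, 39, 43), (33, 40, 44),
  (34, 25, 35), (34, 25, 41), (34, 26, 36), (34, 26, 42), (34, 28, 37), (34, 29, 38), (34, 32, 40), (34, 32, 45),
  (34, 35, 41), (34, 36, 42), (34, 39, 44), (34, 40, 45), (35, 24, 36), (35, 24, 43), (35, 27, 37), (35, 29, 39),
  (35, 31, 40), (35, 31, 46), (35, 34, 41), (35, 36, 43), (35, 38, 44), (35, 40, 46), (36, 27, 38), (36, 28, 39),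
  (36, 30, 40), (36, 30, 47), (36, 34, 42), (36, 35, 43), (36, 37, 44), (36, 40, 47), (37, 24, 38), (37, 24, 45),
  (37, 26, 39), (37, 26, 46), (37, 29, 40), (37, 33, 41), (37, 36, 44), (37, 38, 45), (37, 39, 46), (38, 25, 39),
  (38, 25, 47), (38, 28, 40), (38, 33, 42), (38, 35, 44), (38, 37, 45), (38, 39, 47), (39, 27, 40), (39, 33, 43),
  (39, 34, 44), (39, 37, 46), (39, 38, 47), (40, 33, 44), (40, 34, 45), (40, 35, 46), (40, 36, 47), (41, 24, 42),
  (41, 26, 43), (41, 29, 44), (41, 29, 47), (41, 31, 45), (41, 32, 46), (42, 25, 43), (42, 28, 44), (42, 28, 46),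
  (42, 30, 45), (42, 32, 47), (43, 27, 44), (43, 27, 45), (43, 30, 46), (43, 31, 47), (44, 27, 45), (44, 28, 46),
  (44, 29, 47), (45, 25, 46), (45, 26, 47), (46, 24, 47)]

theorem codeL_ok : ∀ k < 48, 24 ≤ k → ∃ e ∈ codeL, e.1 = k ∧ (e.2 : ℤ) = tabF4.coord 4 0 k +
    16 * tabF4.coord 4 1 k + 256 * tabF4.coord 4 2 k + 4096 * tabF4.coord 4 3 k := by decide +kernel

theorem comb_ok : (codeL.all fun r => codeL.all fun s => (List.range' 1 4).all fun i =>
    (List.range' 1 4).all fun j => codeL.all fun k =>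
      !(k.2 == i * r.2 + j * s.2) || comb.contains (r.1, s.1, k.1)) = true := by decide +kernel

/-- Check: positive roots closed under positive combinations. -/
def chkClosed (P : List ℕ) : Bool :=
  (P.all fun r => decide (24 ≤ r) && decide (r < 48)) &&
  comb.all fun e => !(P.contains e.1 && P.contains e.2.1) || P.contains e.2.2

theorem coord_le : ∀ m < 4, ∀ k < 48, tabF4.coord 4 m k ≤ 4 := by decide +kernel

theorem closed_of_chk {P : List ℕ} (h : chkClosed P = true) :
    Sys.Closed S (rs P) ∧ ∀ r ∈ P, 24 ≤ r ∧ r < 48 := by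
  simp only [chkClosed, Bool.and_eq_true, List.all_eq_true, decide_eq_true_eq] at h
  obtain ⟨h1, h2⟩ := h
  refine ⟨?_, h1⟩
  intro r hr s hs pr ps k hk a b ha hb hv
  obtain ⟨r1, r2⟩ := h1 r hr
  obtain ⟨s1, s2⟩ := h1 s hs
  obtain ⟨j, hj, hpos⟩ := Sys.exists_vec_pos S (r := r) r2 r1
  obtain ⟨l, hl, hlpos⟩ := Sys.exists_vec_pos S (r := s) s2 s1
  have hk24 : 24 ≤ k := by
    refine Sys.pos_of_vec S hk hj ?_
    rw [hv j hj]
    exact add_pos_of_pos_of_nonneg (mul_pos (by omega) hpos)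
      (mul_nonneg (by omega) (Sys.vec_pos S s s2 s1 j hj))
  have ka : (a : ℤ) ≤ 4 := by
    have e : tabF4.coord 4 j k = a * Sys.vec S j r + b * Sys.vec S j s := hv j hj
    have := coord_le j hj k hk
    have : (0 : ℤ) ≤ b * Sys.vec S j s := mul_nonneg (by omega) (Sys.vec_pos S s s2 s1 j hj)
    have : (a : ℤ) ≤ a * Sys.vec S j r := le_mul_of_one_le_right (by omega) hpos
    omega
  have kb : (b : ℤ) ≤ 4 := by
    have e : tabF4.coord 4 l k = a * Sys.vec S l r + b * Sys.vec S l s := hv l hl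
    have := coord_le l hl k hk
    have : (0 : ℤ) ≤ a * Sys.vec S l r := mul_nonneg (by omega) (Sys.vec_pos S r r2 r1 l hl)
    have : (b : ℤ) ≤ b * Sys.vec S l s := le_mul_of_one_le_right (by omega) hlpos
    omega
  obtain ⟨er, her, rfl, cr⟩ := codeL_ok r r2 r1
  obtain ⟨es, hes, rfl, cs⟩ := codeL_ok s s2 s1
  obtain ⟨ek, hek, rfl, ck⟩ := codeL_ok k hk hk24
  have e0 : tabF4.coord 4 0 ek.1 = a * tabF4.coord 4 0 er.1 + b * tabF4.coord 4 0 es.1 :=
    hv 0 (show 0 < chevF4.rank by decide)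
  have e1 : tabF4.coord 4 1 ek.1 = a * tabF4.coord 4 1 er.1 + b * tabF4.coord 4 1 es.1 :=
    hv 1 (show 1 < chevF4.rank by decide)
  have e2 : tabF4.coord 4 2 ek.1 = a * tabF4.coord 4 2 er.1 + b * tabF4.coord 4 2 es.1 :=
    hv 2 (show 2 < chevF4.rank by decide)
  have e3 : tabF4.coord 4 3 ek.1 = a * tabF4.coord 4 3 er.1 + b * tabF4.coord 4 3 es.1 :=
    hv 3 (show 3 < chevF4.rank by decide)
  rw [e0, e1, e2, e3] at ck
  have e : ek.2 = a * er.2 + b * es.2 := by
    have : (ek.2 : ℤ) = a * (er.2 : ℤ) + b * (es.2 : ℤ) := by rw [ck, cr, cs]; ring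
    exact_mod_cast this
  have hc := comb_ok
  simp only [List.all_eq_true, List.mem_range'_1, Bool.or_eq_true, Bool.not_eq_eq_eq_not,
    Bool.not_true, beq_eq_false_iff_ne, List.contains_iff_mem] at hc
  have hmem := (hc er her es hes a ⟨ha, by omega⟩ b ⟨hb, by omega⟩ ek hek).resolve_left
    (fun h => h e)
  simpa [show er.1 ∈ P from hr, show es.1 ∈ P from hs] using h2 _ hmem

/-- Check: a coordinate is well defined. -/
def chkCo (P : List ℕ) (u : ℕ) : Bool :=
  chkClosed P && chkClosed (without P [u]) && P.contains u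

theorem rs_without {P L : List ℕ} : rs (without P L) = {r | r ∈ rs P ∧ r ∉ L} := by
  ext r
  simp [without]

theorem rs_without_single {P : List ℕ} {u : ℕ} : rs (without P [u]) = rs P \ {u} := by
  rw [rs_without]
  ext r
  simp

/-- The facts behind a coordinate. -/
structure Co (P : List ℕ) (u : ℕ) : Prop where
  cl : Sys.Closed S (rs P)
  clu : Sys.Closed S (rs P \ {u})
  mem : u ∈ P
  pos : chevF4.nroots / 2 ≤ u ∧ u < chevF4.nroots
  all : ∀ r ∈ P, chevF4.nroots / 2 ≤ r ∧ r < chevF4.nroots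

theorem co_of_chk {P : List ℕ} {u : ℕ} (h : chkCo P u = true) : Co P u := by
  simp only [chkCo, Bool.and_eq_true, List.contains_iff_mem] at h
  obtain ⟨h1, h2⟩ := closed_of_chk h.1.1
  refine ⟨h1, ?_, h.2, h2 u h.2, h2⟩
  have := (closed_of_chk h.1.2).1
  rwa [rs_without_single] at this

variable {K : Type*} [Field K]

/-- The subgroup of a list of positive roots. -/
abbrev UP (K : Type*) [Field K] (P : List ℕ) : Subgroup (GL chevF4.Idx K) := uSub chevF4 K (rs P)

open Classical in
/-- The coordinate at a root. -/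
noncomputable def co (P : List ℕ) (u : ℕ) (q : GL chevF4.Idx K) : K :=
  if h : ∃ c, Sys.Coord S K (rs P) u q c then h.choose else 0

theorem co_spec {P : List ℕ} {u : ℕ} (H : Co P u) {q : GL chevF4.Idx K} (hq : q ∈ UP K P) :
    Sys.Coord S K (rs P) u q (co P u q) := by
  have h := Sys.exists_coord S H.cl H.mem H.pos hq
  rw [co, dif_pos h]
  exact h.choose_spec

theorem co_eq {P : List ℕ} {u : ℕ} (H : Co P u) {q : GL chevF4.Idx K} (hq : q ∈ UP K P) {c : K}
    (h : Sys.Coord S K (rs P) u q c) : co P u q = c :=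
  Sys.coord_unique S H.clu H.pos.2 (co_spec H hq) h

theorem co_mul {P : List ℕ} {u : ℕ} (H : Co P u) {q r : GL chevF4.Idx K} (hq : q ∈ UP K P)
    (hr : r ∈ UP K P) : co P u (q * r) = co P u q + co P u r :=
  co_eq H (mul_mem hq hr) (Sys.coord_mul S H.cl H.mem H.pos (co_spec H hq) (co_spec H hr))

theorem co_one {P : List ℕ} {u : ℕ} (H : Co P u) : co P u (1 : GL chevF4.Idx K) = 0 :=
  co_eq H (one_mem _) (Sys.coord_one S _ _)

theorem co_inv {P : List ℕ} {u : ℕ} (H : Co P u) {q : GL chevF4.Idx K} (hq : q ∈ UP K P) :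
    co P u q⁻¹ = -co P u q := by
  have := co_mul H hq (inv_mem hq)
  rw [mul_inv_cancel, co_one H] at this
  exact (eq_neg_of_add_eq_zero_right this.symm)

theorem xG_mem {P : List ℕ} (hP : ∀ r ∈ P, chevF4.nroots / 2 ≤ r ∧ r < chevF4.nroots) {r : ℕ}
    (hr : r ∈ P) (t : K) : Sys.xG S K r t ∈ UP K P :=
  Sys.xG_mem_uSub S K (P := rs P) hr (hP r hr).1 (hP r hr).2 t

theorem co_xG {P : List ℕ} {u : ℕ} (H : Co P u) {r : ℕ} (hr : r ∈ P) (t : K) :
    co P u (Sys.xG S K r t) = if r = u then t else 0 :=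
  co_eq H (xG_mem H.all hr t) (Sys.coord_xG S (P := rs P) hr (H.all r hr) t)

theorem co_zero_iff {P : List ℕ} {u : ℕ} (H : Co P u) {q : GL chevF4.Idx K} (hq : q ∈ UP K P) :
    co P u q = 0 ↔ q ∈ uSub chevF4 K (rs P \ {u}) := by
  constructor
  · intro h
    exact (Sys.coord_zero_iff S).mp (h ▸ co_spec H hq)
  · exact fun h => co_eq H hq ((Sys.coord_zero_iff S).mpr h)

/-- Vanishing coordinates. -/
theorem mem_without {P L : List ℕ} {q : GL chevF4.Idx K} (hP : Sys.Closed S (rs P))
    (hL : ∀ u ∈ L, Co P u) (hq : q ∈ UP K P) (h0 : ∀ u ∈ L, co P u q = 0) :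
    q ∈ UP K (without P L) := by
  have := (Sys.mem_diff_list S hP hq L fun u hu =>
    ⟨(hL u hu).clu, (co_zero_iff (hL u hu) hq).mp (h0 u hu)⟩).2
  rwa [UP, rs_without]

theorem wG_mem {P : List ℕ} (hP : ∀ r ∈ P, chevF4.nroots / 2 ≤ r ∧ r < chevF4.nroots) :
    ∀ W : List (ℕ × K), (∀ e ∈ W, e.1 ∈ P) → Sys.wG S K W ∈ UP K P := by
  intro W hW
  refine Subgroup.list_prod_mem _ fun g hg => ?_
  obtain ⟨e, he, rfl⟩ := List.mem_map.mp hg
  exact xG_mem hP (hW e he) _

theorem co_wG {P : List ℕ} {u : ℕ} (H : Co P u) : ∀ W : List (ℕ × K), (∀ e ∈ W, e.1 ∈ P) →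
    co P u (Sys.wG S K W) = ((W.filter fun e => e.1 == u).map Prod.snd).sum := by
  intro W
  induction W with
  | nil => intro _; simpa [Sys.wG] using co_one H
  | cons e W ih =>
    intro hW
    rw [List.forall_mem_cons] at hW
    have e1 : Sys.wG S K (e :: W) = Sys.xG S K e.1 e.2 * Sys.wG S K W := by simp [Sys.wG]
    rw [e1, co_mul H (xG_mem H.all hW.1 _) (wG_mem H.all W hW.2), co_xG H hW.1, ih hW.2]
    by_cases h : e.1 = u <;> simp [h]

/-- Check: the effect of a table on the coordinate at `u`. -/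
def chkLin (tb : List (ℕ × List (ℕ × List Mon))) (P : List ℕ) (u : ℕ) (src : List ℕ) : Bool :=
  chkCo P u && (src.all fun w => chkCo P w) && decide (u :: src).Nodup &&
  P.all fun w => tb.any fun e => decide (e.1 = w) && (e.2.all fun k => P.contains k.1) &&
    decide ((e.2.filter fun k => k.1 == u).flatMap Prod.snd =
      if (u :: src).contains w then [((1 : ℤ), 1, 0)] else [])

/-- The word of the involution. -/
noncomputable def xw (K : Type*) [Field K] (x : List ℕ) : GL chevF4.Idx K :=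
  Sys.xProd S K x fun _ => 1

theorem pev_flatMap (t u : K) (L : List (ℕ × List Mon)) :
    pev K t u (L.flatMap Prod.snd) = (L.map fun e => pev K t u e.2).sum := by
  induction L with
  | nil => simp [pev]
  | cons e L ih => rw [List.flatMap_cons, List.map_cons, List.sum_cons, ← ih]; simp [pev]

variable [CharP K 2]

theorem ew_ones (t u : K) (x : List ℕ) :
    ew S t u (x.map fun r => (r, [((1 : ℤ), 0, 0)])) = xw K x := by
  induction x with
  | nil => simp [ew_nil, xw, Sys.xProd_nil]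
  | cons r x ih =>
    rw [List.map_cons, ew_cons, ih]
    simp [xw, Sys.xProd_cons, pev]

theorem tab_conj {x : List ℕ} {tb : List (ℕ × List (ℕ × List Mon))} (hT : chkTab x tb = true)
    {e : ℕ × List (ℕ × List Mon)} (he : e ∈ tb) (t : K) :
    xw K x * Sys.xG S K e.1 t * xw K x = ew S t 0 e.2 := by
  simp only [chkTab, List.all_eq_true] at hT
  have h := eq2_sound S (hT e he) t (0 : K)
  rw [ew_append, ew_append, ew_ones, ew_cons, ew_nil, mul_one] at h
  rw [← h]
  simp [pev]

/-- The effect of the involution on a coordinate. -/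
theorem co_conj {x : List ℕ} {tb : List (ℕ × List (ℕ × List Mon))} {P : List ℕ} {u : ℕ}
    {src : List ℕ} (hT : chkTab x tb = true) (hx : xw K x * xw K x = 1)
    (h : chkLin tb P u src = true) {q : GL chevF4.Idx K} (hq : q ∈ UP K P) :
    xw K x * q * xw K x ∈ UP K P ∧
      co P u (xw K x * q * xw K x) = co P u q + (src.map fun w => co P w q).sum := by
  simp only [chkLin, Bool.and_eq_true, List.all_eq_true, decide_eq_true_eq, List.any_eq_true,
    List.contains_iff_mem] at h
  obtain ⟨⟨⟨h1, h2⟩, hnd⟩, h3⟩ := h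
  have H := co_of_chk h1
  have Hs : ∀ w ∈ u :: src, Co P w := List.forall_mem_cons.mpr ⟨H, fun w hw => co_of_chk (h2 w hw)⟩
  rw [show co P u q + (src.map fun w => co P w q).sum =
    ((u :: src).map fun w => co P w q).sum by simp]
  suffices hh : q ∈ UP K P ∧ xw K x * q * xw K x ∈ UP K P ∧
      co P u (xw K x * q * xw K x) = ((u :: src).map fun w => co P w q).sum from hh.2
  have hmul : ∀ a b : GL chevF4.Idx K,
      xw K x * (a * b) * xw K x = (xw K x * a * xw K x) * (xw K x * b * xw K x) := by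
    intro a b
    calc _ = xw K x * a * 1 * b * xw K x := by group
      _ = _ := by rw [← hx]; group
  let M : Subgroup (GL chevF4.Idx K) :=
    { carrier := {g | g ∈ UP K P ∧ xw K x * g * xw K x ∈ UP K P ∧
        co P u (xw K x * g * xw K x) = ((u :: src).map fun w => co P w g).sum}
      one_mem' := ⟨one_mem _, by rw [mul_one, hx]; exact one_mem _, by
        rw [mul_one, hx, co_one H]
        exact (List.sum_eq_zero fun y hy => by
          obtain ⟨w, hw, rfl⟩ := List.mem_map.mp hy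
          exact co_one (Hs w hw)).symm⟩
      mul_mem' := fun {a b} ha hb => ⟨mul_mem ha.1 hb.1, by rw [hmul]; exact mul_mem ha.2.1 hb.2.1,
        by
          rw [hmul, co_mul H ha.2.1 hb.2.1, ha.2.2, hb.2.2, ← List.sum_map_add]
          exact congrArg List.sum (List.map_congr_left fun w hw => (co_mul (Hs w hw) ha.1 hb.1).symm)⟩
      inv_mem' := fun {a} ha => by
        have hi : xw K x * a⁻¹ * xw K x = (xw K x * a * xw K x)⁻¹ := by
          refine eq_inv_of_mul_eq_one_left ?_
          rw [← hmul, inv_mul_cancel, mul_one, hx]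
        refine ⟨inv_mem ha.1, by rw [hi]; exact inv_mem ha.2.1, ?_⟩
        rw [hi, co_inv H ha.2.1, ha.2.2, CharTwo.neg_eq]
        exact congrArg List.sum (List.map_congr_left fun w hw => by
          rw [co_inv (Hs w hw) ha.1, CharTwo.neg_eq]) }
  refine (Sys.uSub_le S K (H := M) fun r hr _ _ t => ⟨xG_mem H.all hr t, ?_⟩) hq
  obtain ⟨e, he, ⟨rfl, hin⟩, hco⟩ := h3 r hr
  rw [tab_conj hT he, ew]
  have hW : ∀ k ∈ e.2.map (fun k => (k.1, pev K t 0 k.2)), k.1 ∈ P := by
    intro k hk
    obtain ⟨k', hk', rfl⟩ := List.mem_map.mp hk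
    exact hin k' hk'
  refine ⟨wG_mem H.all _ hW, ?_⟩
  rw [co_wG H _ hW, List.filter_map, List.map_map]
  rw [show ((e.2.filter ((fun k : ℕ × K => k.1 == u) ∘ fun k => (k.1, pev K t 0 k.2))).map
      (Prod.snd ∘ fun k => (k.1, pev K t 0 k.2))).sum =
    pev K t 0 ((e.2.filter fun k => k.1 == u).flatMap Prod.snd) from
      (pev_flatMap t 0 _).symm, hco]
  have hval : ∀ w ∈ u :: src, co P w (Sys.xG S K e.1 t) = if e.1 = w then t else 0 :=
    fun w hw => co_xG (Hs w hw) hr t
  rw [List.map_congr_left hval]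
  by_cases hc : e.1 ∈ u :: src
  · rw [if_pos (by simpa using hc)]
    have hl : ∀ L : List ℕ, L.Nodup → e.1 ∈ L → (L.map fun a => if e.1 = a then t else 0).sum = t := by
      intro L hL hm
      rw [← List.sum_toFinset _ hL, Finset.sum_ite_eq, if_pos (List.mem_toFinset.mpr hm)]
    rw [hl _ hnd hc]
    simp [pev]
  · rw [if_neg (by simpa using hc)]
    simp only [pev, List.map_nil, List.sum_nil]
    exact (List.sum_eq_zero fun y hy => by
      obtain ⟨w, hw, rfl⟩ := List.mem_map.mp hy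
      rw [if_neg (fun e' : e.1 = w => hc (e' ▸ hw))]).symm

end CfsgLib.TwistedLie.F4Inv
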