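import Cfsg.Agent.TwistedLie.InvF4.Step

/-!
The lists of roots met in the reduction, and generic facts used in its steps.
-/

set_option autoImplicit false

namespace CfsgLib.TwistedLie.F4Inv

open Cfsg.Lie CfsgLib.Chevalley CfsgLib.TwistedLie.F4
open Mod2 (ew ew_append ew_cons ew_nil eq2B eq2_sound)

local notation "S" => sysF4

/-- All positive roots. -/
def posR : List ℕ := List.range' 24 24

/-- Off the pair. -/
def P1 : List ℕ := without posR [33, 24]

/-- Off the pair and the first part of the class. -/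
def P1' : List ℕ := without P1 [27, 25]

/-- Off both fundamental classes. -/
def R01 : List ℕ := without P1' [28, 30]

/-- Second layer, first case. -/
def P2 : List ℕ := without P1 [34, 26, 27, 25]

/-- Third layer, first case. -/
def P3 : List ℕ := without P2 [35, 31, 36, 42, 28, 30, 29, 41]

/-- Fourth layer, first case. -/
def P4 : List ℕ := without P3 [38, 43, 37, 32]

/-- Off the class. -/
def Q1 : List ℕ := without posR [27, 25, 28, 30]

/-- Second layer, second case. -/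
def Q2 : List ℕ := without Q1 [33, 24, 34, 26, 35, 31, 37, 32]

theorem rr_pairs : rr 33 = 24 ∧ rr 27 = 25 ∧ rr 34 = 26 ∧ rr 35 = 31 ∧ rr 29 = 41 ∧ rr 28 = 30 ∧
    rr 36 = 42 ∧ rr 40 = 46 ∧ rr 44 = 47 ∧ rr 37 = 32 ∧ rr 38 = 43 ∧ rr 39 = 45 := by
  decide +kernel

theorem ee_ne : ∀ r < 48, ee r ≠ 0 := by decide +kernel

section

variable {K : Type*} [Field K]

theorem UP_nil {P : List ℕ} (hP : P = []) {g : GL chevF4.Idx K} (hg : g ∈ UP K P) : g = 1 := by
  subst hP
  refine Subgroup.mem_bot.mp (Sys.uSub_le S K (H := ⊥) (fun r hr _ _ _ => ?_) hg)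
  exact absurd hr (by simp)

theorem UP_mono {P Q : List ℕ} (h : ∀ r ∈ P, r ∈ Q) {g : GL chevF4.Idx K} (hg : g ∈ UP K P) :
    g ∈ UP K Q :=
  uSub_mono (P := rs P) (Q := rs Q) h hg

theorem co_mono {P Q : List ℕ} {u : ℕ} (H : Co P u) (H' : Co Q u) (h : ∀ r ∈ P, r ∈ Q)
    {g : GL chevF4.Idx K} (hg : g ∈ UP K P) : co Q u g = co P u g :=
  co_eq H' (UP_mono h hg)
    (uSub_mono (P := rs P \ {u}) (Q := rs Q \ {u}) (fun r hr => ⟨h r hr.1, hr.2⟩) (co_spec H hg))

theorem co_not_mem {P Q : List ℕ} {u : ℕ} (H' : Co Q u) (h : ∀ r ∈ P, r ∈ Q) (hu : u ∉ P)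
    {g : GL chevF4.Idx K} (hg : g ∈ UP K P) : co Q u g = 0 :=
  (co_zero_iff H' (UP_mono h hg)).mpr
    (uSub_mono (P := rs P) (Q := rs Q \ {u}) (fun r hr => ⟨h r hr, fun e => hu (e ▸ hr)⟩) hg)

theorem tor_co {P : List ℕ} {u : ℕ} (H : Co P u) (c : ℕ → Kˣ) {g : GL chevF4.Idx K}
    (hg : g ∈ UP K P) :
    tor chevF4 K c * g * (tor chevF4 K c)⁻¹ ∈ UP K P ∧
      co P u (tor chevF4 K c * g * (tor chevF4 K c)⁻¹) = (torusVal chevF4 c u : K) * co P u g := by
  refine ⟨Sys.tor_conj_uSub S K c hg, co_eq H (Sys.tor_conj_uSub S K c hg) ?_⟩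
  have h := Sys.tor_conj_uSub S K c (co_spec H hg)
  show (Sys.xG S K u _)⁻¹ * _ ∈ uSub chevF4 K _
  convert h using 1
  rw [← Sys.tor_conj S K c (show u < chevF4.nroots from H.pos.2)]
  group

end

variable {K : Type*} [Field K] [Fintype K] {m : ℕ} (hK : Fintype.card K = 2 ^ (2 * m + 1))
include hK

local notation "G1" => chevF4.genSubgroup K (f4Words K (2 ^ m))
local notation "θ" => 2 ^ m

/-- A vanishing coordinate gives a second one. -/
theorem co_sigma0 {P : List ℕ} {u : ℕ} (h : chkSig P u = true) {q : GL chevF4.Idx K}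
    (hq : q ∈ UP K P) (hG : q ∈ G1) (h0 : co P u q = 0) : co P (rr u) q = 0 := by
  have hc : chkCo P u = true := by
    simp only [chkSig, Bool.and_eq_true] at h
    exact h.1.1
  rw [co_sigma hK h hq hG, h0,
    zero_pow (mul_ne_zero (ee_ne u (co_of_chk hc).pos.2) (pow_ne_zero m two_ne_zero))]

theorem xw_P : xw K [33, 24] = pe m 33 24 1 ∧ xw K [33, 24] * xw K [33, 24] = 1 ∧
    xw K [33, 24] ∈ G1 := by
  haveI := charTwo hK
  have e : xw K [33, 24] = pe m 33 24 1 := by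
    simp [xw, pe, Sys.xProd_cons, Sys.xProd_nil]
  refine ⟨e, ?_, e ▸ p1_mem hK 1⟩
  have h := eq2_sound S (show eq2B chevF4 [(33, [(1, 0, 0)]), (24, [(1, 0, 0)]), (33, [(1, 0, 0)]),
    (24, [(1, 0, 0)])] [] = true by decide +kernel) (0 : K) 0
  simpa [ew_cons, ew_nil, pev, xw, Sys.xProd_cons, Sys.xProd_nil, mul_assoc] using h

theorem xw_Q : xw K [28, 30] = quadEl m 27 25 28 30 0 1 ∧ xw K [28, 30] * xw K [28, 30] = 1 ∧
    xw K [28, 30] ∈ G1 := by
  haveI := charTwo hK
  have e : xw K [28, 30] = quadEl m 27 25 28 30 0 1 := by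
    simp [xw, quad_zero hK, Sys.xProd_cons, Sys.xProd_nil]
  refine ⟨e, ?_, e ▸ q8_mem hK 0 1⟩
  have h := eq2_sound S (show eq2B chevF4 [(28, [(1, 0, 0)]), (30, [(1, 0, 0)]), (28, [(1, 0, 0)]),
    (30, [(1, 0, 0)])] [] = true by decide +kernel) (0 : K) 0
  simpa [ew_cons, ew_nil, pev, xw, Sys.xProd_cons, Sys.xProd_nil, mul_assoc] using h

theorem quad_zero_mem {P : List ℕ} {a b c d : ℕ}
    (hP : ∀ r ∈ P, chevF4.nroots / 2 ≤ r ∧ r < chevF4.nroots) (hc : c ∈ P) (hd : d ∈ P) (u : K) :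
    quadEl m a b c d 0 u ∈ UP K P := by
  rw [quad_zero hK]
  exact mul_mem (xG_mem hP hc _) (xG_mem hP hd _)

theorem co_quad_zero {P : List ℕ} {w a b c d : ℕ} (H : Co P w) (hc : c ∈ P) (hd : d ∈ P) (u : K) :
    co P w (quadEl m a b c d 0 u) = (if c = w then u else 0) + if d = w then u ^ (2 * θ) else 0 := by
  rw [quad_zero hK, co_mul H (xG_mem H.all hc _) (xG_mem H.all hd _), co_xG H hc, co_xG H hd]

variable {x : List ℕ} {P : List ℕ} {v r : GL chevF4.Idx K}

/-- One source: its coordinate vanishes. -/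
theorem St.kernel1 (h : St hK x P v r) {tb : List (ℕ × List (ℕ × List Mon))} {u w : ℕ}
    (hT : chkTab x tb = true) (hx : xw K x * xw K x = 1) (hl : chkLin tb P u [w] = true) :
    co P w r = 0 := by
  simpa using h.kernel hK hT hx hl

/-- A step keeping a vanishing coordinate, or killing a coordinate. -/
theorem co_next_eq (h : St hK x P v r) {tb : List (ℕ × List (ℕ × List Mon))} {u : ℕ} {src : List ℕ}
    (hT : chkTab x tb = true) (hx : xw K x * xw K x = 1) (hl : chkLin tb P u src = true)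
    {q : GL chevF4.Idx K} (hq : q ∈ UP K P) {c : K} (hc : co P u r = c)
    (hs : (src.map fun w => co P w q).sum = c) : co P u (next x q r) = 0 := by
  haveI := charTwo hK
  rw [co_next hK h hT hx hl hq, hs, hc, CharTwo.add_self_eq_zero]

end CfsgLib.TwistedLie.F4Inv
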