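import Cfsg.Agent.TwistedLie.InvF4.CaseOne
import Cfsg.Agent.TwistedLie.InvF4.CaseTwo
import Cfsg.Agent.TwistedLie.F4Facts

/-!
Every involution of the fixed Sylow 2-subgroup of `²F₄(q)` is conjugate to one of the two standard
ones.
-/

set_option autoImplicit false

namespace CfsgLib.TwistedLie.F4Inv

open Cfsg.Lie CfsgLib.Chevalley CfsgLib.TwistedLie.F4
open Mod2 (ew ew_append ew_cons ew_nil eq2B eq2_sound)

local notation "S" => sysF4

/-- Check: the second part of a class lies outside. -/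
theorem outs : without (without P1 [25]) [27] = P1' ∧ without (without P1 [27]) [25] = P1' ∧
    without posR [33, 24] = P1 ∧ without P1 [27, 25] = P1' ∧ without P1' [28, 30] = R01 := by
  decide +kernel

theorem lev_vals : (∀ j < 4, chevF4.cartan j 33 = [2, -1, 0, 0].getD j 0) ∧
    ∀ j < 4, chevF4.cartan j 28 = [-1, 0, 1, -1].getD j 0 := by
  decide +kernel

theorem idSq : eq2B chevF4
    [(27, [((1 : ℤ), 1, 0)]), (25, [(1, 0, 1)]), (28, [(1, 1, 1)]), (27, [(1, 1, 0)]), (25, [(1, 0, 1)]),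
      (28, [(1, 1, 1)])]
    [(28, [(1, 1, 1)]), (30, [(1, 2, 1)])] = true := by decide +kernel

theorem R01_pos : ∀ i : Fin 2, ∀ r ∈ R01, wL chevF4 (blkN i) r ∈ posR := by decide +kernel

theorem long_neg : ∀ r ∈ posR, wL chevF4 (longWord.flatMap blkN) r < 24 := by decide +kernel

section

variable {K : Type*} [Field K]

theorem posR_spec {r : ℕ} : r ∈ posR ↔ 24 ≤ r ∧ r < 48 := by
  simp [posR, List.mem_range'_1]

theorem UP_posR : UP K posR = chevF4.posUnipotent K := by
  refine le_antisymm (uSub_le_posUnipotent K _) ?_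
  rw [← uSub_univ]
  exact Sys.uSub_le S K fun r _ h1 h2 t =>
    xG_mem (fun r hr => posR_spec.mp hr) (posR_spec.mpr ⟨h1, h2⟩) t

/-- Conjugation by a root element outside does not change a coordinate. -/
theorem conj_out {P Q : List ℕ} {r u : ℕ} (H : Co P r) (H' : Co P u) (HQ : Co Q u)
    (hQ : without P [r] = Q) {g : GL chevF4.Idx K} (hg : g ∈ UP K Q) (t : K) :
    (Sys.xG S K r t)⁻¹ * g * Sys.xG S K r t ∈ UP K Q ∧
      co Q u ((Sys.xG S K r t)⁻¹ * g * Sys.xG S K r t) = co Q u g := by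
  subst hQ
  have h1 : (Sys.xG S K r t)⁻¹ * g * Sys.xG S K r t ∈ UP K (without P [r]) := by
    rw [UP, rs_without_single] at hg ⊢
    have := Sys.xG_normalizes S H.cl H.mem H.pos (-t) hg
    rwa [← Sys.xG_inv, inv_inv] at this
  have hsub : ∀ x ∈ without P [r], x ∈ P := fun x hx => (List.mem_filter.mp hx).1
  have hx : Sys.xG S K r t ∈ UP K P := xG_mem H.all H.mem t
  refine ⟨h1, ?_⟩
  rw [← co_mono HQ H' hsub h1, ← co_mono HQ H' hsub hg,
    co_mul H' (mul_mem (inv_mem hx) (UP_mono hsub hg)) hx,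
    co_mul H' (inv_mem hx) (UP_mono hsub hg), co_inv H' hx]
  ring

end

variable {K : Type*} [Field K] [Fintype K] {m : ℕ} (hK : Fintype.card K = 2 ^ (2 * m + 1))
include hK

local notation "G1" => chevF4.genSubgroup K (f4Words K (2 ^ m))
local notation "θ" => 2 ^ m

variable {v : GL chevF4.Idx K}

/-- A nonzero coordinate on the pair. -/
theorem of33 (hv : v ∈ UP K posR) (hG : v ∈ G1) (h2 : v * v = 1) (h33 : co posR 33 v ≠ 0) :
    Cj hK v (xw K [33, 24]) := by
  set b := Units.mk0 _ h33 with hb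
  set T := tor chevF4 K (cv m 1 b) with hT
  have H : Co posR 33 := co_of_chk (by decide +kernel)
  obtain ⟨hm, hc⟩ := tor_co H (cv m 1 b) hv
  have hval : torusVal chevF4 (cv m 1 b) 33 = b⁻¹ := by
    rw [torusVal_four, lev_vals.1 0 (by omega), lev_vals.1 1 (by omega), lev_vals.1 2 (by omega),
      lev_vals.1 3 (by omega)]
    simp [cv, four]
  have hcj : Cj hK v (T * v * T⁻¹) := ⟨T, cv_mem hK 1 b, rfl⟩
  refine hcj.trans hK (caseOne hK hm (hcj.mem hK hG) (hcj.sq hK h2) ?_)
  rw [hc, hval, hb, Units.val_inv_eq_inv_val, Units.val_mk0, inv_mul_cancel₀ h33]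

theorem low (h : v ∈ UP K posR ∧ v ∈ G1 ∧ v * v = 1 ∧ ¬Cj hK v (xw K [33, 24]) ∧
    ¬Cj hK v (xw K [28, 30])) : v ∈ UP K R01 := by
  haveI := charTwo hK
  obtain ⟨hv, hG, h2, n1, n2⟩ := h
  have c33 : co posR 33 v = 0 := by
    by_contra hne
    exact n1 (of33 hK hv hG h2 hne)
  have c24 := co_sigma0 hK (show chkSig posR 33 = true by decide +kernel) hv hG c33
  rw [rr_pairs.1] at c24
  have hv1 : v ∈ UP K P1 := outs.2.2.1 ▸ mem_without (L := [33, 24])
    (closed_of_chk (by decide +kernel)).1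
    (fun u hu => co_of_chk ((by decide +kernel : ∀ u ∈ [33, 24], chkCo posR u = true) u hu)) hv
    (by simp [c33, c24])
  have H27 : Co P1 27 := co_of_chk (by decide +kernel)
  have H25 : Co P1 25 := co_of_chk (by decide +kernel)
  set a := co P1 27 v with ha
  set s := a ^ (2 * θ) with hs
  have c25 : co P1 25 v = s := by
    have := co_sigma hK (show chkSig P1 27 = true by decide +kernel) hv1 hG
    rwa [rr_pairs.2.1, (by decide +kernel : ee 27 = 2)] at this
  set q := quadEl m 27 25 28 30 s (0 : K) with hq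
  have hmem : ∀ r ∈ [27, 25, 28, 30], r ∈ P1 := by decide +kernel
  have hqP : q ∈ UP K P1 := quad_mem_UP hK H27.all hmem s 0
  set w := q⁻¹ * v with hw
  have hwP : w ∈ UP K P1' := by
    refine outs.2.2.2.1 ▸ mem_without (L := [27, 25]) H27.cl (fun u hu => ?_)
      (mul_mem (inv_mem hqP) hv1) fun u hu => ?_
    · simp only [List.mem_cons, List.not_mem_nil, or_false] at hu
      rcases hu with rfl | rfl <;> assumption
    · simp only [List.mem_cons, List.not_mem_nil, or_false] at hu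
      rcases hu with rfl | rfl
      · rw [co_mul H27 (inv_mem hqP) hv1, co_inv H27 hqP, CharTwo.neg_eq, hq, co_quad hK H27 hmem]
        simp [hs, two_theta hK, ← ha, CharTwo.add_self_eq_zero]
      · rw [co_mul H25 (inv_mem hqP) hv1, co_inv H25 hqP, CharTwo.neg_eq, hq, co_quad hK H25 hmem]
        simp [c25, CharTwo.add_self_eq_zero]
  have K28 : Co P1' 28 := co_of_chk (by decide +kernel)
  have hsq : s ^ (θ + 1) = a * s := by rw [pow_succ, hs, two_theta hK]
  have hqe : q = Sys.xG S K 27 a * Sys.xG S K 25 s * Sys.xG S K 28 (a * s) := by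
    rw [hq, quadEl, hsq, hs, two_theta hK, ← hs]
    simp [zero_tp hK, Sys.xG_zero]
  -- Squaring shows that the first part of the class vanishes.
  have has : a * s = 0 := by
    obtain ⟨e1, f1⟩ := conj_out (P := without P1 [25]) (Q := P1') (r := 27) (u := 28)
      (co_of_chk (by decide +kernel)) (co_of_chk (by decide +kernel)) K28 outs.1 hwP a
    obtain ⟨e2, f2⟩ := conj_out (P := without P1 [27]) (Q := P1') (r := 25) (u := 28)
      (co_of_chk (by decide +kernel)) (co_of_chk (by decide +kernel)) K28 outs.2.1 e1 s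
    have m28 : 28 ∈ P1' := by decide +kernel
    have m30 : 30 ∈ P1' := by decide +kernel
    have hx28 : Sys.xG S K 28 (a * s) ∈ UP K P1' := xG_mem K28.all m28 _
    set w2 := (Sys.xG S K 25 s)⁻¹ * ((Sys.xG S K 27 a)⁻¹ * w * Sys.xG S K 27 a) * Sys.xG S K 25 s
      with hw2
    have hw3 : (Sys.xG S K 28 (a * s))⁻¹ * w2 * Sys.xG S K 28 (a * s) = q⁻¹ * w * q := by
      rw [hqe, hw2]; group
    have hqq : q * q = Sys.xG S K 28 (a * s) * Sys.xG S K 30 (a ^ 2 * s) := by
      have e := eq2_sound S idSq a s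
      simp only [ew_cons, ew_nil, pev] at e
      rw [hqe]
      simpa [mul_assoc] using e
    have hvv : (q * q) * ((Sys.xG S K 28 (a * s))⁻¹ * w2 * Sys.xG S K 28 (a * s)) * w = 1 := by
      rw [hw3, ← h2, hw]; group
    have := congrArg (co P1' 28) hvv
    have hm : (Sys.xG S K 28 (a * s))⁻¹ * w2 * Sys.xG S K 28 (a * s) ∈ UP K P1' :=
      mul_mem (mul_mem (inv_mem hx28) e2) hx28
    have hqqm : q * q ∈ UP K P1' := hqq ▸ mul_mem hx28 (xG_mem K28.all m30 _)
    rw [co_mul K28 (mul_mem hqqm hm) hwP, co_mul K28 hqqm hm,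
      co_mul K28 (mul_mem (inv_mem hx28) e2) hx28, co_mul K28 (inv_mem hx28) e2, co_inv K28 hx28,
      f2, f1, hqq, co_mul K28 hx28 (xG_mem K28.all m30 _), co_xG K28 m28, co_xG K28 m30,
      co_one K28] at this
    simp only [if_true, show ¬(30 = 28) by omega, if_false, CharTwo.neg_eq, add_zero] at this
    calc a * s = a * s + (a * s + co P1' 28 w + a * s) + co P1' 28 w := by
          rw [show a * s + (a * s + co P1' 28 w + a * s) + co P1' 28 w =
            a * s + ((a * s + a * s) + (co P1' 28 w + co P1' 28 w)) by ring,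
            CharTwo.add_self_eq_zero, CharTwo.add_self_eq_zero, add_zero, add_zero]
      _ = 0 := this
  have ha0 : a = 0 := by
    rcases mul_eq_zero.mp has with h0 | h0
    · exact h0
    · exact eq_zero_of_pow_eq_zero h0
  have hvw : v = w := by
    have : q = 1 := by rw [hqe, has, hs, ha0]; simp [Sys.xG_zero, zero_tp hK]
    rw [hw, this, inv_one, one_mul]
  have hv2 : v ∈ UP K P1' := hvw ▸ hwP
  set u := co P1' 28 v with hu
  have K30 : Co P1' 30 := co_of_chk (by decide +kernel)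
  have hS : chkSig P1' 28 = true := by decide +kernel
  by_cases hu0 : u = 0
  · have c30 := co_sigma0 hK hS hv2 hG hu0
    rw [rr_pairs.2.2.2.2.2.1] at c30
    refine outs.2.2.2.2 ▸ mem_without (L := [28, 30]) K28.cl (fun r hr => ?_) hv2
      (by simp [← hu, hu0, c30])
    simp only [List.mem_cons, List.not_mem_nil, or_false] at hr
    rcases hr with rfl | rfl <;> assumption
  exfalso
  set b := (Units.mk0 u hu0)⁻¹ ^ θ with hb
  set T := tor chevF4 K (cv m 1 b) with hT
  obtain ⟨hm, hc⟩ := tor_co K28 (cv m 1 b) hv2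
  have hval : (torusVal chevF4 (cv m 1 b) 28 : K) = u⁻¹ := by
    rw [torusVal_four, lev_vals.2 0 (by omega), lev_vals.2 1 (by omega), lev_vals.2 2 (by omega),
      lev_vals.2 3 (by omega)]
    simp [cv, four, hb, theta_two hK]
  set v' := T * v * T⁻¹ with hv'
  have hcj : Cj hK v v' := ⟨T, cv_mem hK 1 b, rfl⟩
  have hG' := hcj.mem hK hG
  have c28 : co P1' 28 v' = 1 := by rw [hc, hval, ← hu, inv_mul_cancel₀ hu0]
  have c30 : co P1' 30 v' = 1 := by
    have := co_sigma hK hS hm hG'
    rwa [rr_pairs.2.2.2.2.2.1, c28, one_pow] at this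
  obtain ⟨hxe, hx, hxG⟩ := xw_Q hK
  have m28 : 28 ∈ P1' := by decide +kernel
  have m30 : 30 ∈ P1' := by decide +kernel
  have hxP : xw K [28, 30] ∈ UP K P1' := hxe ▸ quad_zero_mem hK K28.all m28 m30 1
  have hr : xw K [28, 30] * v' ∈ UP K R01 := by
    refine outs.2.2.2.2 ▸ mem_without (L := [28, 30]) K28.cl (fun r hr => ?_)
      (mul_mem hxP hm) fun r hr => ?_
    · simp only [List.mem_cons, List.not_mem_nil, or_false] at hr
      rcases hr with rfl | rfl <;> assumption
    · simp only [List.mem_cons, List.not_mem_nil, or_false] at hr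
      rcases hr with rfl | rfl
      · rw [co_mul K28 hxP hm, c28, hxe, co_quad_zero hK K28 m28 m30]
        simp [CharTwo.add_self_eq_zero]
      · rw [co_mul K30 hxP hm, c30, hxe, co_quad_zero hK K30 m28 m30]
        simp [CharTwo.add_self_eq_zero]
  have hxr : xw K [28, 30] * (xw K [28, 30] * v') = v' := by rw [← mul_assoc, hx, one_mul]
  have hsub : ∀ r ∈ R01, r ∈ Q1 := by decide +kernel
  have hst : St hK [28, 30] Q1 v (xw K [28, 30] * v') :=
    ⟨UP_mono hsub hr, mul_mem hxG hG', hxr.symm ▸ hcj, hxr.symm ▸ hcj.sq hK h2⟩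
  have h0 := co_not_mem (co_of_chk (show chkCo Q1 33 = true by decide +kernel)) hsub
    (by decide +kernel) hr
  rcases caseTwo hK hst h0 with e | ⟨v'', e, e1, e2⟩
  · exact n2 e
  · exact n1 (e.trans hK (of33 hK e1 (e.mem hK hG) (e.sq hK h2) e2))

/-- The reduction. -/
theorem two_classes (hv : v ∈ chevF4.posUnipotent K) (hG : v ∈ G1) (h2 : v * v = 1) (h1 : v ≠ 1) :
    Cj hK v (xw K [33, 24]) ∨ Cj hK v (xw K [28, 30]) := by
  haveI := charTwo hK
  rw [← UP_posR] at hv
  by_contra hne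
  rw [not_or] at hne
  have conjR : ∀ (L : List ℕ) (hL : ∀ a ∈ L, a < 4) (H : Subgroup (GL chevF4.Idx K)) (P : List ℕ),
      (∀ r ∈ P, r < 48 ∧ ∀ t : K, Sys.xG S K (wL chevF4 L r) t ∈ H) →
      ∀ g ∈ UP K P, nL S K L * g * (nL S K L)⁻¹ ∈ H := by
    intro L hL H P hP g hg
    have hle : UP K P ≤ H.comap (MulAut.conj (nL S K L)).toMonoidHom := by
      refine Sys.uSub_le S K fun r hr _ h2 t => ?_
      rw [Subgroup.mem_comap, MulEquiv.coe_toMonoidHom, MulAut.conj_apply, nL_conj_one hL h2]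
      exact (hP r hr).2 t
    exact hle hg
  have key : ∀ W : List (Fin 2), nL S K (W.flatMap blkN) * v * (nL S K (W.flatMap blkN))⁻¹ ∈
      UP K posR ∧ Cj hK v (nL S K (W.flatMap blkN) * v * (nL S K (W.flatMap blkN))⁻¹) := by
    intro W
    induction W with
    | nil => simpa [nL] using ⟨hv, Cj.refl hK v⟩
    | cons i W ih =>
      obtain ⟨i1, i2⟩ := ih
      set g := nL S K (W.flatMap blkN) * v * (nL S K (W.flatMap blkN))⁻¹ with hg
      have e : nL S K ((i :: W).flatMap blkN) * v * (nL S K ((i :: W).flatMap blkN))⁻¹ =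
          nL S K (blkN i) * g * (nL S K (blkN i))⁻¹ := by
        rw [hg, List.flatMap_cons]
        simp [nL, mul_assoc]
      rw [e]
      have hlow := low hK ⟨i1, i2.mem hK hG, i2.sq hK h2, fun c => hne.1 (i2.trans hK c),
        fun c => hne.2 (i2.trans hK c)⟩
      refine ⟨conjR (blkN i) (blkN_lt i) _ R01 (fun r hr => ?_) g hlow,
        i2.trans hK ⟨_, n_mem hK i, rfl⟩⟩
      exact ⟨((by decide +kernel : ∀ r ∈ R01, r < 48) r hr),
        fun t => xG_mem (fun r hr => posR_spec.mp hr) (R01_pos i r hr) t⟩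
  have hneg := conjR (longWord.flatMap blkN) (fun a ha => by
      obtain ⟨i, -, hi⟩ := List.mem_flatMap.mp ha
      exact blkN_lt i a hi)
    (chevF4.negUnipotent K) posR
    (fun r hr => ⟨(posR_spec.mp hr).2, fun t =>
      Sys.xG_mem_negUnipotent S K (long_neg r hr) t⟩) v hv
  have hb : nL S K (longWord.flatMap blkN) * v * (nL S K (longWord.flatMap blkN))⁻¹ ∈
      chevF4.borelSubgroup K ⊓ chevF4.negUnipotent K :=
    ⟨Subgroup.mem_sup_left (UP_posR (K := K) ▸ (key longWord).1), hneg⟩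
  rw [Sys.borel_inf_neg S K, Subgroup.mem_bot, mul_inv_eq_one, mul_eq_left] at hb
  exact h1 hb

end CfsgLib.TwistedLie.F4Inv
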