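import Cfsg.Agent.TwistedLie.InvF4.Coord

/-!
Elements of the root classes of `²F₄(q)`, and steps of the reduction of an involution.
-/

set_option autoImplicit false

namespace CfsgLib.TwistedLie.F4Inv

open Cfsg.Lie CfsgLib.Chevalley CfsgLib.TwistedLie.F4
open Mod2 (ew ew_append ew_cons ew_nil eq2B eq2_sound)

local notation "S" => sysF4

variable {K : Type*} [Field K] [Fintype K] {m : ℕ} (hK : Fintype.card K = 2 ^ (2 * m + 1))
include hK

local notation "G1" => chevF4.genSubgroup K (f4Words K (2 ^ m))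
local notation "θ" => 2 ^ m

/-- Conjugacy inside the group. -/
def Cj (_ : Fintype.card K = 2 ^ (2 * m + 1)) (g h : GL chevF4.Idx K) : Prop :=
  ∃ k ∈ G1, k * g * k⁻¹ = h

theorem Cj.refl (g : GL chevF4.Idx K) : Cj hK g g := ⟨1, one_mem _, by group⟩

theorem Cj.symm {g h : GL chevF4.Idx K} (e : Cj hK g h) : Cj hK h g := by
  obtain ⟨k, hk, rfl⟩ := e
  exact ⟨k⁻¹, inv_mem hk, by group⟩

theorem Cj.trans {g h i : GL chevF4.Idx K} (e : Cj hK g h) (f : Cj hK h i) : Cj hK g i := by
  obtain ⟨k, hk, rfl⟩ := e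
  obtain ⟨l, hl, rfl⟩ := f
  exact ⟨l * k, mul_mem hl hk, by group⟩

theorem Cj.of_comm {k g h : GL chevF4.Idx K} (hk : k ∈ G1) (e : k * g = h * k) : Cj hK g h :=
  ⟨k, hk, by rw [e, mul_inv_cancel_right]⟩

theorem Cj.mem {g h : GL chevF4.Idx K} (e : Cj hK g h) (hg : g ∈ G1) : h ∈ G1 := by
  obtain ⟨k, hk, rfl⟩ := e
  exact mul_mem (mul_mem hk hg) (inv_mem hk)

theorem Cj.sq {g h : GL chevF4.Idx K} (e : Cj hK g h) (hg : g * g = 1) : h * h = 1 := by
  obtain ⟨k, hk, rfl⟩ := e
  calc _ = k * (g * g) * k⁻¹ := by group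
    _ = 1 := by rw [hg]; group

theorem n_mem (i : Fin 2) : nL S K (blkN i) ∈ G1 := by
  have h := n_mem' hK i
  rwa [wN_blk] at h

/-- The element of a class of two orthogonal roots. -/
noncomputable def pe (m a b : ℕ) (t : K) : GL chevF4.Idx K :=
  Sys.xG S K a (t ^ 2 ^ m) * Sys.xG S K b t

theorem pe_conj (i : Fin 2) {a b : ℕ} (ha : a < 48) (hb : b < 48) (t : K) :
    nL S K (blkN i) * pe m a b t * (nL S K (blkN i))⁻¹ =
      pe m (wL chevF4 (blkN i) a) (wL chevF4 (blkN i) b) t := by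
  haveI := charTwo hK
  rw [pe, pe, ← nL_conj_one (blkN_lt i) ha, ← nL_conj_one (blkN_lt i) hb]
  group

theorem quad_conj_n (i : Fin 2) {a b c d : ℕ} (ha : a < 48) (hb : b < 48) (hc : c < 48)
    (hd : d < 48) (t u : K) :
    nL S K (blkN i) * quadEl m a b c d t u * (nL S K (blkN i))⁻¹ =
      quadEl m (wL chevF4 (blkN i) a) (wL chevF4 (blkN i) b) (wL chevF4 (blkN i) c)
        (wL chevF4 (blkN i) d) t u := by
  haveI := charTwo hK
  rw [quadEl, quadEl, ← nL_conj_one (blkN_lt i) ha, ← nL_conj_one (blkN_lt i) hb,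
    ← nL_conj_one (blkN_lt i) hc, ← nL_conj_one (blkN_lt i) hd]
  group

theorem conj_mem {g : GL chevF4.Idx K} (i : Fin 2) (hg : g ∈ G1) :
    nL S K (blkN i) * g * (nL S K (blkN i))⁻¹ ∈ G1 :=
  mul_mem (mul_mem (n_mem hK i) hg) (inv_mem (n_mem hK i))

theorem p1_mem (t : K) : pe m 33 24 t ∈ G1 := (pair_mem (e := θ) t).1

theorem p7_mem (t : K) : pe m 37 32 t ∈ G1 := by
  have h := conj_mem hK 0 (p1_mem hK t)
  rwa [pe_conj hK 0 (by omega) (by omega),
    show wL chevF4 (blkN 0) 33 = 37 by decide +kernel,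
    show wL chevF4 (blkN 0) 24 = 32 by decide +kernel] at h

theorem p3_mem (t : K) : pe m 38 43 t ∈ G1 := by
  have h := conj_mem hK 1 (p7_mem hK t)
  rwa [pe_conj hK 1 (by omega) (by omega),
    show wL chevF4 (blkN 1) 37 = 38 by decide +kernel,
    show wL chevF4 (blkN 1) 32 = 43 by decide +kernel] at h

theorem q8_mem (t u : K) : quadEl m 27 25 28 30 t u ∈ G1 := (quad_mem hK t u).1

theorem q2_mem (t u : K) : quadEl m 34 26 36 42 t u ∈ G1 := by
  have h := conj_mem hK 1 (q8_mem hK t u)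
  rwa [quad_conj_n hK 1 (by omega) (by omega) (by omega) (by omega),
    show wL chevF4 (blkN 1) 27 = 34 by decide +kernel, show wL chevF4 (blkN 1) 25 = 26 by decide +kernel,
    show wL chevF4 (blkN 1) 28 = 36 by decide +kernel, show wL chevF4 (blkN 1) 30 = 42 by decide +kernel] at h

theorem q6_mem (t u : K) : quadEl m 35 31 40 46 t u ∈ G1 := by
  have h := conj_mem hK 0 (q2_mem hK t u)
  rwa [quad_conj_n hK 0 (by omega) (by omega) (by omega) (by omega),
    show wL chevF4 (blkN 0) 34 = 35 by decide +kernel, show wL chevF4 (blkN 0) 26 = 31 by decide +kernel,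
    show wL chevF4 (blkN 0) 36 = 40 by decide +kernel, show wL chevF4 (blkN 0) 42 = 46 by decide +kernel] at h

theorem q4_mem (t u : K) : quadEl m 29 41 44 47 t u ∈ G1 := by
  have h := conj_mem hK 1 (q6_mem hK t u)
  rwa [quad_conj_n hK 1 (by omega) (by omega) (by omega) (by omega),
    show wL chevF4 (blkN 1) 35 = 29 by decide +kernel, show wL chevF4 (blkN 1) 31 = 41 by decide +kernel,
    show wL chevF4 (blkN 1) 40 = 44 by decide +kernel, show wL chevF4 (blkN 1) 46 = 47 by decide +kernel] at h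

theorem zero_tp : (0 : K) ^ θ = 0 ∧ (0 : K) ^ (θ + 1) = 0 ∧ (0 : K) ^ (2 * θ) = 0 :=
  ⟨zero_pow (pow_ne_zero m two_ne_zero), zero_pow (Nat.succ_ne_zero _),
    zero_pow (mul_ne_zero two_ne_zero (pow_ne_zero m two_ne_zero))⟩

theorem quad_zero (a b c d : ℕ) (u : K) :
    quadEl m a b c d 0 u = Sys.xG S K c u * Sys.xG S K d (u ^ (2 * θ)) := by
  obtain ⟨h1, h2, -⟩ := zero_tp hK
  simp [quadEl, h1, h2, Sys.xG_zero]

theorem pe_mem_UP {P : List ℕ} {a b : ℕ}
    (hP : ∀ r ∈ P, chevF4.nroots / 2 ≤ r ∧ r < chevF4.nroots) (ha : a ∈ P) (hb : b ∈ P) (t : K) :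
    pe m a b t ∈ UP K P :=
  mul_mem (xG_mem hP ha _) (xG_mem hP hb _)

theorem co_pe {P : List ℕ} {u a b : ℕ} (H : Co P u) (ha : a ∈ P) (hb : b ∈ P) (t : K) :
    co P u (pe m a b t) = (if a = u then t ^ θ else 0) + if b = u then t else 0 := by
  rw [pe, co_mul H (xG_mem H.all ha _) (xG_mem H.all hb _), co_xG H ha, co_xG H hb]

theorem quad_mem_UP {P : List ℕ} {a b c d : ℕ}
    (hP : ∀ r ∈ P, chevF4.nroots / 2 ≤ r ∧ r < chevF4.nroots) (h : ∀ r ∈ [a, b, c, d], r ∈ P)
    (t s : K) : quadEl m a b c d t s ∈ UP K P :=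
  mul_mem (mul_mem (mul_mem (xG_mem hP (h a (by simp)) _) (xG_mem hP (h b (by simp)) _))
    (xG_mem hP (h c (by simp)) _)) (xG_mem hP (h d (by simp)) _)

theorem co_quad {P : List ℕ} {u a b c d : ℕ} (H : Co P u) (h : ∀ r ∈ [a, b, c, d], r ∈ P)
    (t s : K) : co P u (quadEl m a b c d t s) =
      (if a = u then t ^ θ else 0) + (if b = u then t else 0) +
        (if c = u then t ^ (θ + 1) + s else 0) + if d = u then s ^ (2 * θ) else 0 := by
  have ha := h a (by simp)
  have hb := h b (by simp)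
  have hc := h c (by simp)
  have hd := h d (by simp)
  rw [quadEl, co_mul H (mul_mem (mul_mem (xG_mem H.all ha _) (xG_mem H.all hb _))
      (xG_mem H.all hc _)) (xG_mem H.all hd _),
    co_mul H (mul_mem (xG_mem H.all ha _) (xG_mem H.all hb _)) (xG_mem H.all hc _),
    co_mul H (xG_mem H.all ha _) (xG_mem H.all hb _), co_xG H ha, co_xG H hb, co_xG H hc, co_xG H hd]

/-- The twist between two subgroups of lists of roots. -/
theorem sigma_map {P Q : List ℕ} (hQ : ∀ r ∈ Q, chevF4.nroots / 2 ≤ r ∧ r < chevF4.nroots)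
    (hPQ : ∀ r ∈ P, rr r ∈ Q) {g : GL chevF4.Idx K} (hg : g ∈ UP K P) :
    g ∈ chevF4.group K ∧ sigma hK g ∈ UP K Q := by
  let M : Subgroup (GL chevF4.Idx K) :=
    { carrier := {g | g ∈ chevF4.group K ∧ sigma hK g ∈ UP K Q}
      one_mem' := ⟨one_mem _, by rw [sigma_one hK]; exact one_mem _⟩
      mul_mem' := fun {a b} ha hb =>
        ⟨mul_mem ha.1 hb.1, by rw [sigma_mul hK ha.1 hb.1]; exact mul_mem ha.2 hb.2⟩
      inv_mem' := fun {a} ha =>
        ⟨inv_mem ha.1, by rw [sigma_inv hK ha.1]; exact inv_mem ha.2⟩ }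
  refine (Sys.uSub_le S K (H := M) fun r hr h1 h2 t => ⟨Sys.xG_mem S K h2 t, ?_⟩) hg
  rw [sigma_x hK h2]
  exact xG_mem hQ (hPQ r hr) _

/-- Check: the orbit of a root inside a list. -/
def chkSig (P : List ℕ) (u : ℕ) : Bool :=
  chkCo P u && chkCo P (rr u) && P.all fun r => P.contains (rr r) && (decide (rr r ≠ rr u) || decide (r = u))

/-- Coordinates of fixed elements. -/
theorem co_sigma {P : List ℕ} {u : ℕ} (h : chkSig P u = true) {q : GL chevF4.Idx K}
    (hq : q ∈ UP K P) (hG : q ∈ G1) :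
    co P (rr u) q = co P u q ^ (ee u * θ) := by
  simp only [chkSig, Bool.and_eq_true, List.all_eq_true, List.contains_iff_mem, Bool.or_eq_true,
    decide_eq_true_eq] at h
  obtain ⟨⟨h1, h2⟩, h3⟩ := h
  have H := co_of_chk h1
  have H' := co_of_chk h2
  set r := (Sys.xG S K u (co P u q))⁻¹ * q with hr
  have hrm : r ∈ uSub chevF4 K (rs P \ {u}) := co_spec H hq
  rw [← rs_without_single] at hrm
  obtain ⟨hrG, hsr⟩ := sigma_map hK (Q := without P [rr u]) (P := without P [u])
    (fun x hx => H.all x (List.mem_filter.mp hx).1) (fun x hx => by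
      simp only [without, List.mem_filter, List.contains_iff_mem, Bool.not_eq_eq_eq_not,
        Bool.not_true, List.contains_eq_mem, decide_eq_false_iff_not, List.mem_singleton] at hx ⊢
      exact ⟨(h3 x hx.1).1, (h3 x hx.1).2.resolve_right hx.2⟩) hrm
  rw [UP, rs_without_single] at hsr
  refine co_eq H' hq ?_
  have e : q = Sys.xG S K (rr u) (co P u q ^ (ee u * θ)) * sigma hK r := by
    conv_lhs => rw [← (sigma_gen hK hG).2, show q = Sys.xG S K u (co P u q) * r by
      rw [hr, mul_inv_cancel_left]]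
    rw [sigma_mul hK (Sys.xG_mem S K H.pos.2 _) hrG, sigma_x hK H.pos.2]
  show (Sys.xG S K (rr u) _)⁻¹ * q ∈ _
  nth_rw 2 [e]
  rwa [inv_mul_cancel_left]

/-- The state of the reduction. -/
structure St (hK : Fintype.card K = 2 ^ (2 * m + 1)) (x : List ℕ) (P : List ℕ)
    (v r : GL chevF4.Idx K) : Prop where
  mem : r ∈ UP K P
  memG : r ∈ G1
  cj : Cj hK v (xw K x * r)
  sq : xw K x * r * (xw K x * r) = 1

variable {x : List ℕ} {P : List ℕ} {v r : GL chevF4.Idx K}

/-- The constraint from squaring. -/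
theorem St.kernel (h : St hK x P v r) {tb : List (ℕ × List (ℕ × List Mon))} {u : ℕ} {src : List ℕ}
    (hT : chkTab x tb = true) (hx : xw K x * xw K x = 1) (hl : chkLin tb P u src = true) :
    (src.map fun w => co P w r).sum = 0 := by
  haveI := charTwo hK
  obtain ⟨h1, h2⟩ := co_conj hT hx hl h.mem
  have H : Co P u := by
    simp only [chkLin, Bool.and_eq_true] at hl
    exact co_of_chk hl.1.1.1
  have e : (xw K x * r * xw K x) * r = 1 := by rw [mul_assoc]; exact h.sq
  have := congrArg (co P u) e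
  rw [co_mul H h1 h.mem, h2, co_one H] at this
  calc (src.map fun w => co P w r).sum
      = co P u r + (src.map fun w => co P w r).sum + co P u r := by
        rw [add_right_comm, CharTwo.add_self_eq_zero, zero_add]
    _ = 0 := this

/-- The conjugate of `x * r` by `q`. -/
noncomputable def next (x : List ℕ) (q r : GL chevF4.Idx K) : GL chevF4.Idx K :=
  xw K x * (q * (xw K x * r) * q⁻¹)

/-- One conjugation. -/
theorem St.step (h : St hK x P v r) {tb : List (ℕ × List (ℕ × List Mon))} {u : ℕ} {src : List ℕ}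
    (hT : chkTab x tb = true) (hx : xw K x * xw K x = 1) (hl : chkLin tb P u src = true)
    (hxG : xw K x ∈ G1) {q : GL chevF4.Idx K} (hq : q ∈ UP K P) (hqG : q ∈ G1) :
    St hK x P v (next x q r) := by
  haveI := charTwo hK
  have e : next x q r = xw K x * q * xw K x * r * q⁻¹ := by simp only [next, mul_assoc]
  have e' : xw K x * next x q r = q * (xw K x * r) * q⁻¹ := by
    rw [next, ← mul_assoc, hx, one_mul]
  have hc : Cj hK (xw K x * r) (xw K x * next x q r) := ⟨q, hqG, e'.symm⟩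
  refine ⟨?_, ?_, h.cj.trans hK hc, hc.sq hK h.sq⟩
  · rw [e]
    exact mul_mem (mul_mem (co_conj hT hx hl hq).1 h.mem) (inv_mem hq)
  · exact mul_mem hxG (mul_mem (mul_mem hqG (mul_mem hxG h.memG)) (inv_mem hqG))

theorem co_next (h : St hK x P v r) {tb : List (ℕ × List (ℕ × List Mon))} {u : ℕ} {src : List ℕ}
    (hT : chkTab x tb = true) (hx : xw K x * xw K x = 1) (hl : chkLin tb P u src = true)
    {q : GL chevF4.Idx K} (hq : q ∈ UP K P) :
    co P u (next x q r) = co P u r + (src.map fun w => co P w q).sum := by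
  haveI := charTwo hK
  obtain ⟨h1, h2⟩ := co_conj hT hx hl hq
  have H : Co P u := by
    simp only [chkLin, Bool.and_eq_true] at hl
    exact co_of_chk hl.1.1.1
  have e : next x q r = xw K x * q * xw K x * r * q⁻¹ := by simp only [next, mul_assoc]
  rw [e, co_mul H (mul_mem h1 h.mem) (inv_mem hq), co_mul H h1 h.mem, h2, co_inv H hq,
    CharTwo.neg_eq]
  calc co P u q + (src.map fun w => co P w q).sum + co P u r + co P u q
      = co P u r + (src.map fun w => co P w q).sum + (co P u q + co P u q) := by ring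
    _ = _ := by rw [CharTwo.add_self_eq_zero, add_zero]

theorem St.shrink (h : St hK x P v r) {L Q : List ℕ} (hc : chkClosed P = true)
    (hL : ∀ u ∈ L, chkCo P u = true) (h0 : ∀ u ∈ L, co P u r = 0) (hQ : without P L = Q) :
    St hK x Q v r :=
  ⟨hQ ▸ mem_without (closed_of_chk hc).1 (fun u hu => co_of_chk (hL u hu)) h.mem h0,
    h.memG, h.cj, h.sq⟩

end CfsgLib.TwistedLie.F4Inv
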